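import Mathlib

/-! Arithmetic of the degrees. -/

set_option autoImplicit false

namespace Cfsg.Agent.KnownA.SLMin

/-- The target degree `q + q² + ⋯ + q^N`. -/
def tgt (q N : ℕ) : ℕ := ∑ i ∈ Finset.range N, q ^ (i + 1)

theorem tgt_succ (q N : ℕ) : tgt q (N + 1) = tgt q N + q ^ (N + 1) := Finset.sum_range_succ _ _

theorem tgt_zero (q : ℕ) : tgt q 0 = 0 := rfl

theorem tgt_geom (q N : ℕ) : (tgt q N + 1) * (q - 1) = q ^ (N + 1) - 1 := by
  rcases Nat.eq_zero_or_pos q with rfl | hq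
  · simp
  obtain ⟨r, rfl⟩ : ∃ r, q = r + 1 := ⟨q - 1, by omega⟩
  have h : (tgt (r + 1) N + 1) * r + 1 = (r + 1) ^ (N + 1) := by
    induction N with
    | zero => simp [tgt_zero]
    | succ N ih =>
      rw [tgt_succ, pow_succ (r + 1) (N + 1)]
      calc (tgt (r + 1) N + (r + 1) ^ (N + 1) + 1) * r + 1
          = ((tgt (r + 1) N + 1) * r + 1) + (r + 1) ^ (N + 1) * r := by ring
        _ = _ := by rw [ih]; ring
  rw [Nat.add_sub_cancel]
  omega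

theorem le_tgt {q N : ℕ} (hN : 1 ≤ N) : q ^ N ≤ tgt q N := by
  obtain ⟨M, rfl⟩ : ∃ M, N = M + 1 := ⟨N - 1, by omega⟩
  rw [tgt_succ]
  omega

theorem tgt_lt {q N : ℕ} (hq : 2 ≤ q) (hN : 1 ≤ N) : tgt q N + 2 ≤ 2 * q ^ N := by
  induction N, hN using Nat.le_induction with
  | base => simp [tgt]; omega
  | succ M _ ih =>
    rw [tgt_succ, pow_succ]
    nlinarith

theorem dvd_tgt {q N : ℕ} : q ∣ tgt q N :=
  Finset.dvd_sum fun _ _ => dvd_pow_self q (Nat.succ_ne_zero _)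

/-- The degree one below the target is impossible. -/
theorem no_pred {q M : ℕ} (hq : 2 ≤ q) (hM : 1 ≤ M) {k c : ℕ} (hc : c = tgt q M)
    (hk : k = c + (q ^ (M + 1) - 1))
    (hdvd : k ∣ (tgt q (M + 1) + 1) * (q ^ (M + 1) - 1) * (c - 1)) : False := by
  have hpow : 1 ≤ q ^ (M + 1) := Nat.one_le_pow _ _ (by omega)
  have hkT : k + 1 = tgt q (M + 1) := by rw [tgt_succ, hk, ← hc]; omega
  have hc1 : 1 ≤ c := by
    have := le_tgt (q := q) hM
    have := Nat.one_le_pow M q (by omega)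
    omega
  have hpsucc : 2 * q ^ M ≤ q ^ (M + 1) := by rw [pow_succ, mul_comm 2]; exact Nat.mul_le_mul_left _ hq
  have hlt : 2 * c < k := by
    have := tgt_lt hq hM
    omega
  have hz : (k : ℤ) ∣ ((tgt q (M + 1) : ℤ) + 1) * ((q : ℤ) ^ (M + 1) - 1) * ((c : ℤ) - 1) := by
    have := Int.natCast_dvd_natCast.mpr hdvd
    push_cast [Nat.cast_sub hpow, Nat.cast_sub hc1] at this
    exact this
  have e1 : (tgt q (M + 1) : ℤ) + 1 = (k : ℤ) + 2 := by rw [← hkT]; push_cast; ring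
  have e2 : (q : ℤ) ^ (M + 1) - 1 = (k : ℤ) - c := by rw [hk]; push_cast [Nat.cast_sub hpow]; ring
  rw [e1, e2, show (c : ℤ) - 1 = (k : ℤ) - (q : ℤ) ^ (M + 1) by linear_combination e2] at hz
  have h2 : (k : ℤ) ∣ 2 * (c : ℤ) * (q : ℤ) ^ (M + 1) := by
    have h3 : ((k : ℤ) + 2) * ((k : ℤ) - c) * ((k : ℤ) - (q : ℤ) ^ (M + 1)) - 2 * (c : ℤ) * (q : ℤ) ^ (M + 1)
        = (k : ℤ) * (((k : ℤ) + 2 - c) * ((k : ℤ) - (q : ℤ) ^ (M + 1)) - 2 * c + c * 0) + 0 := by ring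
    exact (dvd_sub_right hz).mp (Dvd.intro _ (by rw [h3, add_zero]))
  have h3 : k ∣ 2 * c * q ^ (M + 1) := by exact_mod_cast h2
  have hcop : Nat.Coprime k (q ^ (M + 1)) := by
    refine Nat.Coprime.pow_right _ ?_
    rw [Nat.coprime_iff_gcd_eq_one]
    refine Nat.dvd_one.mp ?_
    have h4 : Nat.gcd k q ∣ k + 1 := (Nat.gcd_dvd_right k q).trans (hkT ▸ dvd_tgt)
    exact (Nat.dvd_add_right (Nat.gcd_dvd_left k q)).mp h4
  exact absurd (Nat.le_of_dvd (by omega) (hcop.dvd_of_dvd_mul_right h3)) (by omega)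

/-- The two degrees below the target in dimension three. -/
theorem no_pred_three {q k c : ℕ} (hq : 3 ≤ q) (hq4 : q ≠ 4) (hpp : q ≠ 10) (hc : c = q - 1)
    (hk : k = c + (q ^ 2 - 1)) (hdvd : k ∣ (tgt q 2 + 1) * (q ^ 2 - 1) * (c - 1)) : False := by
  obtain ⟨r, rfl⟩ : ∃ r, q = r + 3 := ⟨q - 3, by omega⟩
  subst hc
  have hsq : 1 ≤ (r + 3) ^ 2 := Nat.one_le_pow _ _ (by omega)
  have hk' : k = (r + 2) * (r + 5) := by
    rw [hk]
    have e' : (r + 3) ^ 2 + (r + 2) = (r + 2) * (r + 5) + 1 := by ring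
    omega
  have h1 : (r + 3) ^ 2 - 1 = (r + 2) * (r + 4) := by
    have : (r + 3) ^ 2 = (r + 2) * (r + 4) + 1 := by ring
    omega
  have h2 : tgt (r + 3) 2 + 1 = (r + 2) * (r + 5) + 3 := by simp [tgt, Finset.sum_range_succ]; ring
  rw [hk', h1, h2, show r + 3 - 1 - 1 = r + 1 by omega] at hdvd
  have h3 : r + 5 ∣ ((r + 2) * (r + 5) + 3) * (r + 4) * (r + 1) := by
    refine Nat.dvd_of_mul_dvd_mul_left (by omega : 0 < r + 2) ?_
    calc (r + 2) * (r + 5) ∣ ((r + 2) * (r + 5) + 3) * ((r + 2) * (r + 4)) * (r + 1) := hdvd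
      _ = _ := by ring
  have h4 : r + 5 ∣ 12 := by
    have h5 : ((r + 5 : ℕ) : ℤ) ∣ (((r + 2) * (r + 5) + 3) * (r + 4) * (r + 1) : ℕ) := Int.natCast_dvd_natCast.mpr h3
    have h6 : (((r + 2) * (r + 5) + 3) * (r + 4) * (r + 1) : ℕ) - (12 : ℤ) =
        ((r + 5 : ℕ) : ℤ) * ((r + 2) * (r + 4) * (r + 1) + 3 * r) := by push_cast; ring
    have := (dvd_sub_right h5).mp (Dvd.intro _ h6.symm)
    exact_mod_cast this
  have h12 := Nat.le_of_dvd (by norm_num) h4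
  have h7 : r ≤ 7 := by omega
  interval_cases r <;> omega

end Cfsg.Agent.KnownA.SLMin
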