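import Cfsg.Agent.S2579
import Cfsg.Agent.Linear.TransvCent
import Cfsg.Agent.Chars.Eigen
import Cfsg.Agent.KnownA.SLCrossChar

/-! The conjugacy class of the transvections of `SL` over a block index. -/

set_option autoImplicit false
set_option linter.unusedSectionVars false

namespace Cfsg.Agent.KnownA.SLMin

open Matrix

variable {F : Type*} [Field F] [Fintype F] [DecidableEq F] {N : ℕ}

local notation "ι" => (Fin 1 ⊕ Fin N)

/-- The special linear group over the block index and over `Fin (1 + N)`. -/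
def reix : SpecialLinearGroup ι F ≃* SpecialLinearGroup (Fin (1 + N)) F where
  toFun g := ⟨Matrix.reindex finSumFinEquiv finSumFinEquiv g.1, by rw [det_reindex_self]; exact g.2⟩
  invFun g := ⟨Matrix.reindex finSumFinEquiv.symm finSumFinEquiv.symm g.1, by rw [det_reindex_self]; exact g.2⟩
  left_inv g := Subtype.ext (by ext a b; simp [Matrix.reindex_apply])
  right_inv g := Subtype.ext (by ext a b; simp [Matrix.reindex_apply])
  map_mul' g h := Subtype.ext (by
    show Matrix.reindex _ _ (g.1 * h.1) = Matrix.reindex _ _ g.1 * Matrix.reindex _ _ h.1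
    rw [Matrix.reindex_apply, Matrix.reindex_apply, Matrix.reindex_apply, submatrix_mul_equiv])

/-- A rank one nilpotent translate of the identity. -/
def IsTv {κ : Type*} [Fintype κ] [DecidableEq κ] (M : Matrix κ κ F) : Prop :=
  ∃ u φ : κ → F, u ≠ 0 ∧ φ ≠ 0 ∧ φ ⬝ᵥ u = 0 ∧ M = 1 + vecMulVec u φ

theorem isTv_slUni {v : Fin N → F} (hv : v ≠ 0) : IsTv (slUni v).1 := by
  refine ⟨Pi.single (Sum.inl 0) 1, Sum.elim 0 v, Function.ne_iff.mpr ⟨Sum.inl 0, by simp⟩, fun e => hv ?_,
    by simp, ?_⟩
  · funext x; exact congrFun e (Sum.inr x)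
  · show fromBlocks _ _ _ _ = _
    ext a b
    rcases a with a | a <;> rcases b with b | b <;>
      simp [Matrix.add_apply, Matrix.one_apply, vecMulVec_apply, Pi.single_apply, replicateRow_apply,
        Fin.fin_one_eq_zero]

theorem isTv_slLevi {i j : Fin N} (hij : i ≠ j) {c : F} (hc : c ≠ 0) :
    IsTv (slLevi (SpecialLinearGroup.transvection hij c)).1 := by
  refine ⟨Pi.single (Sum.inr i) 1, Pi.single (Sum.inr j) c, Function.ne_iff.mpr ⟨Sum.inr i, by simp⟩,
    Function.ne_iff.mpr ⟨Sum.inr j, by simp [hc]⟩, by simp [hij], ?_⟩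
  show fromBlocks 1 0 0 (Matrix.transvection i j c) = _
  ext a b
  rcases a with a | a <;> rcases b with b | b <;>
    simp [Matrix.transvection, Matrix.add_apply, Matrix.one_apply, vecMulVec_apply, Pi.single_apply,
      Matrix.single_apply, eq_comm]
  by_cases ha : a = i <;> by_cases hb : b = j <;> simp [ha, hb, Ne.symm]

theorem isTv_reix {g : SpecialLinearGroup ι F} (h : IsTv g.1) : IsTv (reix g).1 := by
  obtain ⟨u, φ, hu, hφ, h0, e⟩ := h
  refine ⟨u ∘ finSumFinEquiv.symm, φ ∘ finSumFinEquiv.symm, fun e' => hu ?_, fun e' => hφ ?_, ?_, ?_⟩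
  · funext x; simpa using congrFun e' (finSumFinEquiv x)
  · funext x; simpa using congrFun e' (finSumFinEquiv x)
  · rw [← h0]; exact comp_equiv_dotProduct_comp_equiv φ u finSumFinEquiv.symm
  · show Matrix.reindex finSumFinEquiv finSumFinEquiv g.1 = _
    rw [e]
    ext a b
    simp [Matrix.reindex_apply, Matrix.one_apply, vecMulVec_apply]

theorem isTransvection_of_isTv {n : ℕ} {M : Matrix (Fin n) (Fin n) F} (h : IsTv M) :
    Cfsg.IsTransvection M := by
  obtain ⟨u, φ, hu, hφ, h0, rfl⟩ := h
  refine ⟨?_, ?_⟩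
  · rw [add_sub_cancel_left]
    refine le_antisymm (rank_vecMulVec_le u φ) (Nat.one_le_iff_ne_zero.mpr fun e => ?_)
    rw [Matrix.rank, Submodule.finrank_eq_zero, LinearMap.range_eq_bot] at e
    obtain ⟨j, hj⟩ := Function.ne_iff.mp hφ
    obtain ⟨i, hi⟩ := Function.ne_iff.mp hu
    have := congrFun (LinearMap.congr_fun e (Pi.single j 1)) i
    rw [Matrix.mulVecLin_apply, mulVec_single_one, Matrix.col_apply, vecMulVec_apply, LinearMap.zero_apply,
      Pi.zero_apply] at this
    exact mul_ne_zero hi hj this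
  · rw [add_sub_cancel_left, vecMulVec_mul_vecMulVec, h0, zero_smul]
    ext; simp [vecMulVec_apply]

theorem isConj_of_isTv (hN : 2 ≤ N) {g h : SpecialLinearGroup ι F} (hg : IsTv g.1) (hh : IsTv h.1) :
    IsConj g h := by
  have := Cfsg.Agent.S2579.result (F := F) (n := 1 + N) (by omega) (reix g) (reix h)
    (isTransvection_of_isTv (isTv_reix hg)) (isTransvection_of_isTv (isTv_reix hh))
  simpa using MonoidHom.map_isConj (reix (F := F) (N := N)).symm.toMonoidHom this

theorem isTv_conj {n : ℕ} {A B M : Matrix (Fin n) (Fin n) F} (hAB : A * B = 1) (hBA : B * A = 1) (h : IsTv M) :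
    IsTv (A * M * B) := by
  obtain ⟨u, φ, hu, hφ, h0, rfl⟩ := h
  refine ⟨A *ᵥ u, φ ᵥ* B, fun e => hu ?_, fun e => hφ ?_, ?_, ?_⟩
  · have := congrArg (fun v => B *ᵥ v) e
    simpa [mulVec_mulVec, hBA] using this
  · have := congrArg (fun v => v ᵥ* A) e
    simpa [vecMul_vecMul, hBA] using this
  · rw [← dotProduct_mulVec, mulVec_mulVec, hBA, one_mulVec, h0]
  · rw [Matrix.mul_add, Matrix.mul_one, Matrix.add_mul, mul_vecMulVec, vecMulVec_mul, hAB]

/-- The size of the class of transvections. -/
theorem card_class_mul (hN : 2 ≤ N) {g : SpecialLinearGroup ι F} (hg : IsTv g.1) :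
    (Subgroup.centralizer ({g} : Set (SpecialLinearGroup ι F))).index * (Fintype.card F - 1) =
      (Fintype.card F ^ (1 + N) - 1) * (Fintype.card F ^ N - 1) := by
  classical
  rw [← Cfsg.Agent.Chars.card_filter_isConj g]
  let f : {x : SpecialLinearGroup ι F // IsConj g x} → Linear.TransvCent.Tv (1 + N) F := fun x =>
    ⟨(reix x.1).1 - 1, by
      have ht : Cfsg.IsTransvection (reix x.1).1 := by
        have hc : IsConj (reix g) (reix x.1) := MonoidHom.map_isConj (reix (F := F) (N := N)).toMonoidHom x.2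
        obtain ⟨c, hc⟩ := isConj_iff.mp hc
        rw [← hc]
        refine isTransvection_of_isTv (isTv_conj (A := c.1) (B := (c⁻¹).1) ?_ ?_ (isTv_reix hg))
        · exact congrArg Subtype.val (mul_inv_cancel c)
        · exact congrArg Subtype.val (inv_mul_cancel c)
      obtain ⟨u, φ, hu, hφ, h0, e⟩ := Cfsg.Agent.S2579.exists_tv _ ht
      exact ⟨u, φ, hu, hφ, h0, by rw [e, add_sub_cancel_left]⟩⟩
  have hf : Function.Bijective f := by
    refine ⟨fun x y e => Subtype.ext ((reix (F := F) (N := N)).injective (Subtype.ext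
      (sub_left_injective (congrArg Subtype.val e)))), fun M => ?_⟩
    obtain ⟨u, φ, hu, hφ, h0, e⟩ := M.2
    have hd : (1 + vecMulVec u φ).det = 1 := by
      rw [vecMulVec_eq Unit, det_one_add_replicateCol_mul_replicateRow, h0, add_zero]
    let y : SpecialLinearGroup (Fin (1 + N)) F := ⟨1 + vecMulVec u φ, hd⟩
    have hc : IsConj (reix g) y := Cfsg.Agent.S2579.result (F := F) (n := 1 + N) (by omega) _ y
      (isTransvection_of_isTv (isTv_reix hg)) (isTransvection_of_isTv ⟨u, φ, hu, hφ, h0, rfl⟩)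
    refine ⟨⟨reix.symm y, by simpa using MonoidHom.map_isConj (reix (F := F) (N := N)).symm.toMonoidHom hc⟩, Subtype.ext ?_⟩
    show (reix (reix.symm y)).1 - 1 = M.1
    rw [MulEquiv.apply_symm_apply, e]
    show 1 + vecMulVec u φ - 1 = _
    rw [add_sub_cancel_left]
  have h1 : ∀ d : DecidablePred fun x => IsConj g x,
      (@Finset.filter _ (fun x => IsConj g x) d Finset.univ).card = Nat.card (Linear.TransvCent.Tv (1 + N) F) := by
    intro d
    rw [← Nat.card_congr (Equiv.ofBijective f hf), ← Nat.card_eq_finsetCard]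
    exact Nat.card_congr (Equiv.subtypeEquivRight fun x => by simp)
  rw [h1, Linear.TransvCent.card_tv_mul, Linear.TransvCent.card_pairs, show 1 + N - 1 = N by omega]

end Cfsg.Agent.KnownA.SLMin
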