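import Cfsg.Agent.KnownA.SLMin.Elements
import Cfsg.Agent.KnownA.SLMin.Class
import Cfsg.Agent.KnownA.RepSimple
import Cfsg.Agent.Linear.Transvection

/-! Basic bounds, the passage to the fixed space of the radical, and the root group average. -/

set_option autoImplicit false
set_option linter.unusedSectionVars false

namespace Cfsg.Agent.KnownA.SLMin

open Matrix Module

variable {F : Type*} [Field F] [Fintype F] [DecidableEq F]

theorem isTv_transvection {n : ℕ} {i j : Fin n} (hij : i ≠ j) {c : F} (hc : c ≠ 0) :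
    IsTv (SpecialLinearGroup.transvection hij c).1 := by
  refine ⟨Pi.single i 1, Pi.single j c, Function.ne_iff.mpr ⟨i, by simp⟩,
    Function.ne_iff.mpr ⟨j, by simp [hc]⟩, by simp [hij], ?_⟩
  show Matrix.transvection i j c = _
  ext a b
  simp [Matrix.transvection, Matrix.add_apply, vecMulVec_apply, Pi.single_apply, Matrix.single_apply, eq_comm]
  by_cases ha : a = i <;> by_cases hb : b = j <;> simp [ha, hb, Ne.symm]

theorem reix_eq_transvection {M : ℕ} {i j : Fin 1 ⊕ Fin M} (hij : i ≠ j) (c : F) :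
    reix (SpecialLinearGroup.transvection hij c) =
      SpecialLinearGroup.transvection (finSumFinEquiv.injective.ne hij) c := by
  apply Subtype.ext
  show Matrix.reindex _ _ (Matrix.transvection i j c) = Matrix.transvection _ _ c
  ext a b
  simp [Matrix.reindex_apply, Matrix.transvection, Matrix.one_apply, Matrix.single_apply, Equiv.eq_symm_apply]

theorem conj_trace {G V : Type*} [Group G] [AddCommGroup V] [Module ℂ V] [FiniteDimensional ℂ V]
    (σ : G →* End ℂ V) {g h : G} (hc : IsConj g h) :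
    LinearMap.trace ℂ V (σ g) = LinearMap.trace ℂ V (σ h) := by
  obtain ⟨c, rfl⟩ := isConj_iff.mp hc
  exact (Representation.char_conj (σ : Representation ℂ G V) g c).symm

/-- The transvections of `SL` over `Fin n` all have the same trace. -/
theorem trace_const_fin {n : ℕ} (hn : 3 ≤ n) {V : Type*} [AddCommGroup V] [Module ℂ V] [FiniteDimensional ℂ V]
    (σ : SpecialLinearGroup (Fin n) F →* End ℂ V) {g h : SpecialLinearGroup (Fin n) F} (hg : IsTv g.1)
    (hh : IsTv h.1) : LinearMap.trace ℂ V (σ g) = LinearMap.trace ℂ V (σ h) :=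
  conj_trace σ (Cfsg.Agent.S2579.result hn g h (isTransvection_of_isTv hg) (isTransvection_of_isTv hh))

theorem exists_ne_zero {M : ℕ} (hM : 0 < M) : ∃ v : Fin M → F, v ≠ 0 :=
  ⟨Pi.single ⟨0, hM⟩ 1, by simp⟩

/-- The data of a nontrivial representation. -/
theorem exists_data {M : ℕ} (hM : 2 ≤ M) {V : Type*} [AddCommGroup V] [Module ℂ V] [FiniteDimensional ℂ V]
    (σ : SpecialLinearGroup (Fin 1 ⊕ Fin M) F →* End ℂ V) (hσ : ∃ g, σ g ≠ 1) :
    ∃ (t : ℂ) (m : ℕ), 1 ≤ m ∧ (∀ g, IsTv g.1 → LinearMap.trace ℂ V (σ g) = t) ∧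
      m * (Fintype.card F ^ M - 1) ≤ finrank ℂ V ∧ (finrank ℂ V : ℂ) - t = (m : ℂ) * (Fintype.card F : ℂ) ^ M := by
  classical
  obtain ⟨v₀, hv₀⟩ := exists_ne_zero (F := F) (M := M) (by omega)
  set t := LinearMap.trace ℂ V (σ (slUni v₀))
  have ht : ∀ g, IsTv g.1 → LinearMap.trace ℂ V (σ g) = t := fun g hg =>
    conj_trace σ (isConj_of_isTv hM hg (isTv_slUni hv₀))
  let f := MonoidHom.id (SpecialLinearGroup (Fin 1 ⊕ Fin M) F)
  have : Nontrivial (Fin M → F) := ⟨⟨v₀, 0, hv₀⟩⟩
  obtain ⟨c, m, -, -, hdim, htm⟩ := (radFrame σ f (fun v hv => ht _ (isTv_slUni hv))).exists_cm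
  replace htm : t = (c : ℂ) - m := htm
  rw [Fintype.card_fun, Fintype.card_fin, Nat.cast_pow] at hdim
  refine ⟨t, m, Nat.one_le_iff_ne_zero.mpr fun hm0 => ?_, ht, ?_, by linear_combination hdim - htm⟩
  · rw [hm0, Nat.cast_zero, mul_zero, add_zero] at hdim
    rw [hm0, Nat.cast_zero, sub_zero] at htm
    have hone : ∀ g, IsTv g.1 → σ g = 1 := fun g hg =>
      (Cfsg.Agent.Chars.rep_char_eq_finrank_iff (σ : Representation ℂ _ V) g).mp
        ((ht g hg).trans (htm.trans hdim.symm))
    obtain ⟨g, hg⟩ := hσ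
    have : Nontrivial (Fin 1 ⊕ Fin M) := ⟨⟨Sum.inl 0, Sum.inr ⟨0, by omega⟩, by simp⟩⟩
    have htop : MonoidHom.ker σ = ⊤ := by
      refine Linear.eq_top_of_transvection_mem fun i j hij x => ?_
      rw [MonoidHom.mem_ker]
      by_cases hx : x = 0
      · subst hx; rw [SpecialLinearGroup.transvection_coeff_zero, map_one]
      · refine hone _ ?_
        have h1 := isTv_transvection (F := F) (finSumFinEquiv.injective.ne hij) hx
        rw [← reix_eq_transvection hij x] at h1
        obtain ⟨u, φ, hu, hφ, h0, e⟩ := h1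
        refine ⟨u ∘ finSumFinEquiv, φ ∘ finSumFinEquiv, fun e' => hu (funext fun y => ?_),
          fun e' => hφ (funext fun y => ?_), (comp_equiv_dotProduct_comp_equiv φ u finSumFinEquiv).trans h0, ?_⟩
        · simpa using congrFun e' (finSumFinEquiv.symm y)
        · simpa using congrFun e' (finSumFinEquiv.symm y)
        · ext a b
          have := congrFun (congrFun e (finSumFinEquiv a)) (finSumFinEquiv b)
          rw [show (reix (SpecialLinearGroup.transvection hij x)).1 (finSumFinEquiv a) (finSumFinEquiv b) =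
            (SpecialLinearGroup.transvection hij x).1 a b by
              show Matrix.reindex finSumFinEquiv finSumFinEquiv (SpecialLinearGroup.transvection hij x).1 _ _ = _
              simp [Matrix.reindex_apply]] at this
          rw [this]
          simp [Matrix.add_apply, Matrix.one_apply, vecMulVec_apply]
    exact hg (MonoidHom.mem_ker.mp (htop ▸ Subgroup.mem_top g))
  · have hpos : 1 ≤ Fintype.card F ^ M := Nat.one_le_pow _ _ Fintype.card_pos
    have h : finrank ℂ V = c + (Fintype.card F ^ M - 1) * m := by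
      have h' : ((finrank ℂ V : ℕ) : ℂ) = ((c + (Fintype.card F ^ M - 1) * m : ℕ) : ℂ) := by
        rw [hdim]; push_cast [Nat.cast_sub hpos]; ring
      exact_mod_cast h'
    rw [h, mul_comm]
    omega

/-- The elementary lower bound. -/
theorem base_bound {M : ℕ} (hM : 2 ≤ M) {V : Type*} [AddCommGroup V] [Module ℂ V] [FiniteDimensional ℂ V]
    (σ : SpecialLinearGroup (Fin 1 ⊕ Fin M) F →* End ℂ V) (hσ : ∃ g, σ g ≠ 1) :
    Fintype.card F ^ M - 1 ≤ finrank ℂ V := by
  obtain ⟨t, m, hm, -, hle, -⟩ := exists_data hM σ hσ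
  exact le_trans (by simpa using Nat.mul_le_mul_right (Fintype.card F ^ M - 1) hm) hle

/-- The average over a root group. -/
theorem root_avg {M : ℕ} {V : Type*} [AddCommGroup V] [Module ℂ V] [FiniteDimensional ℂ V]
    (σ : GL (Fin M) F →* End ℂ V) {i j : Fin M} (hij : i ≠ j) (e : ℕ)
    (ht : LinearMap.trace ℂ V (σ (SpecialLinearGroup.toGL (SpecialLinearGroup.transvection hij (1 : F)))) =
      (finrank ℂ V : ℂ) - e) :
    (Fintype.card F - 1) * e ≤ Fintype.card F * finrank ℂ V := by
  let S : Frame F V :=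
    { op := fun s => σ (SpecialLinearGroup.toGL (SpecialLinearGroup.transvection hij s))
      op_add := fun x y => by rw [← map_mul, ← map_mul, tv_add]
      op_zero := by rw [SpecialLinearGroup.transvection_coeff_zero, map_one, map_one]
      t := (finrank ℂ V : ℂ) - e
      trace_op := fun x hx => by
        rw [← ht]
        refine (conj_trace σ ?_).symm
        obtain ⟨D, -, hD, -⟩ := exists_diag (Function.update (fun _ => (1 : Fˣ)) i (Units.mk0 x hx)) i j
        rw [Function.update_self, Function.update_of_ne hij.symm, Units.val_one, div_one, Units.val_mk0] at hD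
        refine isConj_iff.mpr ⟨D, ?_⟩
        rw [mul_inv_eq_iff_eq_mul]
        apply Units.ext
        show D.1 * Matrix.transvection i j 1 = Matrix.transvection i j x * D.1
        rw [Matrix.transvection, Matrix.transvection, Matrix.mul_add, Matrix.add_mul, Matrix.mul_one,
          Matrix.one_mul, hD] }
  obtain ⟨r, hr⟩ := S.exists_rank 0
  have h := S.card_mul_trace_proj 0
  rw [if_pos rfl, hr] at h
  have h' : (((Fintype.card F * r + (Fintype.card F - 1) * e : ℕ) : ℕ) : ℂ) =
      ((Fintype.card F * finrank ℂ V : ℕ) : ℂ) := by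
    push_cast [Nat.cast_sub Fintype.card_pos]
    linear_combination h
  have h'' : Fintype.card F * r + (Fintype.card F - 1) * e = Fintype.card F * finrank ℂ V := by exact_mod_cast h'
  omega

/-- The Levi factor of the point stabiliser. -/
noncomputable def lev {N : ℕ} : GL (Fin N) F →* SpecialLinearGroup (Fin 1 ⊕ Fin N) F :=
  MonoidHom.mk' (fun D => ⟨fromBlocks ((D.1.det)⁻¹ • (1 : Matrix (Fin 1) (Fin 1) F)) 0 0 D.1, by
    rw [det_fromBlocks_zero₂₁, det_smul, det_one, Fintype.card_fin, pow_one, mul_one]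
    exact inv_mul_cancel₀ (Matrix.GeneralLinearGroup.det D).ne_zero⟩) fun a b => Subtype.ext (by
      show fromBlocks _ _ _ _ = fromBlocks _ _ _ _ * fromBlocks _ _ _ _
      simp [fromBlocks_multiply, mul_comm, smul_smul])

theorem lev_toGL {N : ℕ} (B : SpecialLinearGroup (Fin N) F) : lev (SpecialLinearGroup.toGL B) = slLevi B := by
  apply Subtype.ext
  show fromBlocks ((B.1.det)⁻¹ • (1 : Matrix (Fin 1) (Fin 1) F)) 0 0 B.1 = fromBlocks 1 0 0 B.1
  rw [B.2, inv_one, one_smul]

theorem norms_lev {N : ℕ} (D : GL (Fin N) F) :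
    Norms (MonoidHom.id (SpecialLinearGroup (Fin 1 ⊕ Fin N) F)) (lev D)
      (blkAct (Matrix.GeneralLinearGroup.det D)⁻¹ D) := by
  intro v
  have hg : (SpecialLinearGroup.toGL (lev D) : GL (Fin 1 ⊕ Fin N) F) =
      blk (Matrix.GeneralLinearGroup.det D)⁻¹ D := Units.ext (by
    show fromBlocks ((D.1.det)⁻¹ • (1 : Matrix (Fin 1) (Fin 1) F)) 0 0 D.1 = (blk _ D).1
    rw [blk_val, Units.val_inv_eq_inv_val]
    rfl)
  refine toGL_injective' ?_
  rw [map_mul, map_mul, hg]
  exact blk_slUni _ _ v

/-- The reindexed general linear group. -/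
noncomputable def reixGL {M : ℕ} : GL (Fin 1 ⊕ Fin M) F →* GL (Fin (1 + M)) F :=
  Units.map (Matrix.reindexAlgEquiv F F finSumFinEquiv).toMonoidHom

theorem reixGL_toGL {M : ℕ} (x : SpecialLinearGroup (Fin 1 ⊕ Fin M) F) :
    reixGL (SpecialLinearGroup.toGL x) = SpecialLinearGroup.toGL (reix x) := Units.ext rfl

end Cfsg.Agent.KnownA.SLMin
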