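import Mathlib

/-! A nontrivial representation has a nontrivial irreducible constituent. -/

set_option autoImplicit false

namespace Cfsg.Agent.KnownA.SLMin

open Module

theorem exists_irreducible_nontrivial {G : Type*} [Group G] [Finite G] {V : Type*} [AddCommGroup V] [Module ℂ V]
    [FiniteDimensional ℂ V] (σ : Representation ℂ G V) (hσ : ∃ g, σ g ≠ 1) :
    ∃ S : Subrepresentation σ, S.toRepresentation.IsIrreducible ∧ (∃ g, S.toRepresentation g ≠ 1) ∧
      finrank ℂ S.toSubmodule ≤ finrank ℂ V := by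
  classical
  let NT : Subrepresentation σ → Prop := fun S => ∃ g, ∃ x ∈ S.toSubmodule, σ g x ≠ x
  have htop : NT ⊤ := by
    obtain ⟨g, hg⟩ := hσ
    by_contra h
    exact hg (LinearMap.ext fun x => by
      by_contra hx
      exact h ⟨g, x, Submodule.mem_top, hx⟩)
  have hex : ∃ d, ∃ S, NT S ∧ finrank ℂ S.toSubmodule = d := ⟨_, ⊤, htop, rfl⟩
  obtain ⟨S, hS, hSd⟩ := Nat.find_spec hex
  have hmin : ∀ T : Subrepresentation σ, NT T → finrank ℂ S.toSubmodule ≤ finrank ℂ T.toSubmodule :=
    fun T hT => hSd ▸ Nat.find_min' hex ⟨T, hT, rfl⟩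
  obtain ⟨g, x, hx, hne⟩ := hS
  have hnt : ∃ g, S.toRepresentation g ≠ 1 := ⟨g, fun e => hne (by
    simpa [Subrepresentation.toRepresentation] using congrArg Subtype.val (LinearMap.congr_fun e ⟨x, hx⟩))⟩
  have hsimple : ∀ T : Subrepresentation σ, T.toSubmodule ≤ S.toSubmodule → T.toSubmodule = ⊥ ∨
      T.toSubmodule = S.toSubmodule := by
    intro T hle
    by_contra h
    push Not at h
    have hTlt : T.toSubmodule < S.toSubmodule := lt_of_le_of_ne hle h.2
    have hTtriv : ∀ g, ∀ y ∈ T.toSubmodule, σ g y = y := by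
      intro g y hy
      by_contra he
      exact (Submodule.finrank_lt_finrank_of_lt hTlt).not_ge (hmin T ⟨g, y, hy, he⟩)
    obtain ⟨T', hT'⟩ := exists_isCompl T
    have hsup : T.toSubmodule ⊔ T'.toSubmodule = ⊤ :=
      congrArg Subrepresentation.toSubmodule hT'.sup_eq_top
    have hdis : T.toSubmodule ⊓ T'.toSubmodule = ⊥ :=
      congrArg Subrepresentation.toSubmodule hT'.inf_eq_bot
    obtain ⟨a, ha, b, hb, e⟩ := Submodule.mem_sup.mp (hsup ▸ (Submodule.mem_top : x ∈ (⊤ : Submodule ℂ V)))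
    have hbS : b ∈ S.toSubmodule := by
      have : b = x - a := by rw [← e]; abel
      rw [this]
      exact S.toSubmodule.sub_mem hx (hle ha)
    have hbne : σ g b ≠ b := fun hb' => hne (by rw [← e, map_add, hTtriv g a ha, hb'])
    have hlt : (T'.toSubmodule ⊓ S.toSubmodule) < S.toSubmodule := by
      refine lt_of_le_of_ne inf_le_right fun he => h.1 (eq_bot_iff.mpr fun y hy => ?_)
      rw [← hdis]
      have hyS := hle hy
      rw [← he] at hyS
      exact ⟨hy, hyS.1⟩
    exact (Submodule.finrank_lt_finrank_of_lt hlt).not_ge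
      (hmin ⟨T'.toSubmodule ⊓ S.toSubmodule, fun g y hy => ⟨T'.apply_mem_toSubmodule g hy.1,
        S.apply_mem_toSubmodule g hy.2⟩⟩ ⟨g, b, ⟨hb, hbS⟩, hbne⟩)
  refine ⟨S, ?_, hnt, Submodule.finrank_le _⟩
  have : Nontrivial (Subrepresentation S.toRepresentation) := ⟨⊥, ⊤, fun e => hne (by
    have h1 : (⊥ : Submodule ℂ S.toSubmodule) = ⊤ := congrArg Subrepresentation.toSubmodule e
    have : (⟨x, hx⟩ : S.toSubmodule) ∈ (⊥ : Submodule ℂ S.toSubmodule) := h1 ▸ Submodule.mem_top
    have h0 : x = 0 := congrArg Subtype.val ((Submodule.mem_bot ℂ).mp this)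
    rw [h0, map_zero])⟩
  refine IsSimpleOrder.mk fun T => ?_
  let T₀ : Subrepresentation σ := ⟨T.toSubmodule.map S.toSubmodule.subtype, by
    rintro g - ⟨y, hy, rfl⟩
    exact ⟨S.toRepresentation g y, T.apply_mem_toSubmodule g hy, rfl⟩⟩
  rcases hsimple T₀ (Submodule.map_subtype_le _ _) with h | h
  · left
    refine Subrepresentation.toSubmodule_injective ?_
    refine eq_bot_iff.mpr fun y hy => ?_
    have h2 : y.1 ∈ (⊥ : Submodule ℂ V) := h ▸ ⟨y, hy, rfl⟩
    exact (Submodule.mem_bot ℂ).mpr (Subtype.ext ((Submodule.mem_bot ℂ).mp h2))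
  · right
    refine Subrepresentation.toSubmodule_injective ?_
    apply Submodule.map_injective_of_injective S.toSubmodule.injective_subtype
    refine h.trans ?_
    exact (Submodule.map_subtype_top _).symm

end Cfsg.Agent.KnownA.SLMin
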