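import Cfsg.Agent.KnownA.SLMin.Step

/-! Stabilisers of characters of the radical whose commutators give the transvections of the complement. -/

set_option autoImplicit false
set_option linter.unusedSectionVars false

namespace Cfsg.Agent.KnownA.SLMin

open Matrix

variable {F : Type*} [Field F] [Fintype F] [DecidableEq F] {N : ℕ}

local notation "ι" => (Fin 1 ⊕ Fin N)

/-- The block element with corner `l` and complement `D`. -/
noncomputable def blk (l : Fˣ) (D : GL (Fin N) F) : GL ι F :=
  Matrix.GeneralLinearGroup.mkOfDetNeZero (fromBlocks ((l : F) • (1 : Matrix (Fin 1) (Fin 1) F)) 0 0 D.1) (by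
    rw [det_fromBlocks_zero₂₁, det_smul, det_one, Fintype.card_fin, pow_one, mul_one]
    exact mul_ne_zero l.ne_zero (Matrix.GeneralLinearGroup.det D).ne_zero)

theorem blk_val (l : Fˣ) (D : GL (Fin N) F) :
    (blk l D).1 = fromBlocks ((l : F) • (1 : Matrix (Fin 1) (Fin 1) F)) 0 0 D.1 := rfl

theorem toGL_slUni (v : Fin N → F) :
    (SpecialLinearGroup.toGL (slUni v) : GL ι F).1 = fromBlocks 1 (replicateRow (Fin 1) v) 0 1 := rfl

theorem toGL_slLevi (B : SpecialLinearGroup (Fin N) F) :
    (SpecialLinearGroup.toGL (slLevi B) : GL ι F).1 = fromBlocks 1 0 0 B.1 := rfl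

/-- The matrix through which a block element normalises the radical. -/
noncomputable def blkAct (l : Fˣ) (D : GL (Fin N) F) : GL (Fin N) F :=
  Matrix.GeneralLinearGroup.mkOfDetNeZero ((l : F) • (D⁻¹).1) (by
    rw [det_smul]
    exact mul_ne_zero (pow_ne_zero _ l.ne_zero) (Matrix.GeneralLinearGroup.det D⁻¹).ne_zero)

theorem blk_slUni (l : Fˣ) (D : GL (Fin N) F) (v : Fin N → F) :
    blk l D * SpecialLinearGroup.toGL (slUni v) =
      SpecialLinearGroup.toGL (slUni (v ᵥ* (blkAct l D).1)) * blk l D := by
  apply Units.ext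
  rw [Units.val_mul, Units.val_mul, blk_val, toGL_slUni, toGL_slUni, fromBlocks_multiply, fromBlocks_multiply]
  simp only [Matrix.mul_one, Matrix.one_mul, Matrix.mul_zero, Matrix.zero_mul, add_zero, zero_add]
  congr 1
  rw [← replicateRow_vecMul, vecMul_vecMul,
    show (blkAct l D).1 * D.1 = (l : F) • (1 : Matrix (Fin N) (Fin N) F) by
      show ((l : F) • (D⁻¹).1) * D.1 = _
      rw [Matrix.smul_mul, Units.inv_mul], vecMul_smul, vecMul_one, Matrix.smul_mul, Matrix.one_mul]
  rfl

theorem blkAct_fix {l : Fˣ} {D : GL (Fin N) F} {w : Fin N → F} (h : D.1 *ᵥ w = (l : F) • w) :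
    (blkAct l D).1 *ᵥ w = w := by
  show ((l : F) • (D⁻¹).1) *ᵥ w = w
  rw [smul_mulVec, ← mulVec_smul, ← h, mulVec_mulVec, Units.inv_mul, one_mulVec]

theorem blk_conj (l : Fˣ) (D : GL (Fin N) F) {B B' : SpecialLinearGroup (Fin N) F}
    (h : D.1 * B.1 = B'.1 * D.1) :
    blk l D * SpecialLinearGroup.toGL (slLevi B) = SpecialLinearGroup.toGL (slLevi B') * blk l D := by
  apply Units.ext
  rw [Units.val_mul, Units.val_mul, blk_val, toGL_slLevi, toGL_slLevi, fromBlocks_multiply, fromBlocks_multiply]
  simp [h]

theorem slLevi_mul (A B : SpecialLinearGroup (Fin N) F) : slLevi A * slLevi B = slLevi (A * B) := by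
  apply Subtype.ext
  show fromBlocks _ _ _ _ * fromBlocks _ _ _ _ = fromBlocks _ _ _ _
  simp [fromBlocks_multiply]

/-- `slLevi` as a homomorphism. -/
def slLeviHom : SpecialLinearGroup (Fin N) F →* SpecialLinearGroup ι F :=
  MonoidHom.mk' slLevi fun a b => (slLevi_mul a b).symm

theorem slLevi_inv (A : SpecialLinearGroup (Fin N) F) : (slLevi A)⁻¹ = slLevi A⁻¹ :=
  (map_inv (slLeviHom (F := F) (N := N)) A).symm

theorem tv_add {i j : Fin N} (hij : i ≠ j) (s t : F) :
    SpecialLinearGroup.transvection hij s * SpecialLinearGroup.transvection hij t =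
      SpecialLinearGroup.transvection hij (s + t) :=
  Subtype.ext (Matrix.transvection_mul_transvection_same i j hij s t)

/-- The stabiliser condition used by the step. -/
def FixOK {G : Type*} [Group G] (f : SpecialLinearGroup ι F →* G) {i j : Fin N} (hij : i ≠ j) (w : Fin N → F) : Prop :=
  ∃ g h : G, Stab f g w ∧ Stab f h w ∧
    f (slLevi (SpecialLinearGroup.transvection hij (1 : F))) = g * h * g⁻¹ * h⁻¹

theorem tv_fix {i j : Fin N} (s : F) {w : Fin N → F} (hwj : w j = 0) :
    Matrix.transvection i j s *ᵥ w = w := by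
  rw [Matrix.transvection, add_mulVec, one_mulVec, single_mulVec, hwj, mul_zero]
  simp

/-- Two transvections fixing the vector. -/
theorem fixOK_comm {G : Type*} [Group G] (f : SpecialLinearGroup ι F →* G) {i j k : Fin N} (hij : i ≠ j)
    (hki : k ≠ i) (hkj : k ≠ j) {w φ : Fin N → F} (hwj : w j = 0) (hφi : φ i = 0) (hφj : φ j = 0)
    (hφk : φ k ≠ 0) (hφw : φ ⬝ᵥ w = 0) : FixOK f hij w := by
  let T1 : SpecialLinearGroup (Fin N) F := ⟨1 + vecMulVec (Pi.single i 1) φ, by
    rw [vecMulVec_eq Unit, det_one_add_replicateCol_mul_replicateRow, dotProduct_single, hφi, zero_mul, add_zero]⟩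
  let T2 := SpecialLinearGroup.transvection hkj (φ k)⁻¹
  let u := SpecialLinearGroup.transvection hij (1 : F)
  have e : T1 * T2 = u * T2 * T1 := by
    apply Subtype.ext
    show (1 + vecMulVec (Pi.single i 1) φ) * Matrix.transvection k j (φ k)⁻¹ =
      Matrix.transvection i j 1 * Matrix.transvection k j (φ k)⁻¹ * (1 + vecMulVec (Pi.single i 1) φ)
    have hab : vecMulVec (Pi.single i (1 : F)) φ * single k j (φ k)⁻¹ = single i j 1 := by
      ext a b
      simp [Matrix.mul_apply, vecMulVec_apply, Pi.single_apply, single_apply]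
      by_cases ha : i = a <;> by_cases hb : j = b
      · simp [← ha, hb, hφk]
      · simp [ha, hb]
      · simp [ha, hb, Ne.symm ha]
      · simp [ha, hb, Ne.symm ha]
    have hba : single k j (φ k)⁻¹ * vecMulVec (Pi.single i (1 : F)) φ = 0 := by
      ext a b
      simp [Matrix.mul_apply, vecMulVec_apply, Pi.single_apply, single_apply, hij.symm]
    have hca : single i j (1 : F) * vecMulVec (Pi.single i (1 : F)) φ = 0 := by
      ext a b
      simp [Matrix.mul_apply, vecMulVec_apply, Pi.single_apply, single_apply, hij.symm]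
    have hcb : single i j (1 : F) * single k j (φ k)⁻¹ = 0 := single_mul_single_of_ne _ _ _ _ hkj.symm _
    simp only [Matrix.transvection, Matrix.add_mul, Matrix.mul_add, Matrix.one_mul, Matrix.mul_one, hab, hba,
      hca, hcb, Matrix.mul_assoc, Matrix.mul_zero, add_zero]
    abel
  refine ⟨f (slLevi T1), f (slLevi T2), stab_levi f ?_, stab_levi f (tv_fix _ hwj), ?_⟩
  · show (1 + vecMulVec (Pi.single i 1) φ) *ᵥ w = w
    rw [add_mulVec, one_mulVec, vecMulVec_mulVec, hφw]
    simp
  · rw [← map_mul, ← map_inv, ← map_mul, ← map_inv, ← map_mul, slLevi_inv, slLevi_inv, slLevi_mul,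
      slLevi_mul, slLevi_mul, e, show u * T2 * T1 * T1⁻¹ * T2⁻¹ = u by group]

/-- A block element scaling the transvection. -/
theorem fixOK_scale {G : Type*} [Group G] (f : SpecialLinearGroup ι F →* G) (π : G →* GL ι F)
    (hπ : Function.Injective π) (hπf : ∀ x, π (f x) = SpecialLinearGroup.toGL x) {i j : Fin N} (hij : i ≠ j)
    {w : Fin N → F} (hwj : w j = 0) {l : Fˣ} {D : GL (Fin N) F} (g : G) (hg : π g = blk l D)
    (hw : D.1 *ᵥ w = (l : F) • w) {a : F} (ha : a ≠ 1) (hD : D.1 * single i j 1 = single i j a * D.1) :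
    FixOK f hij w := by
  set s := (a - 1)⁻¹
  refine ⟨g, f (slLevi (SpecialLinearGroup.transvection hij s)), ⟨_, fun v => hπ ?_, blkAct_fix hw⟩,
    stab_levi f (tv_fix _ hwj), ?_⟩
  · rw [map_mul, map_mul, hg, hπf, hπf, blk_slUni]
  · have e : g * f (slLevi (SpecialLinearGroup.transvection hij s)) =
        f (slLevi (SpecialLinearGroup.transvection hij (a * s))) * g := hπ (by
      rw [map_mul, map_mul, hg, hπf, hπf]
      refine blk_conj l D ?_
      show D.1 * Matrix.transvection i j s = Matrix.transvection i j (a * s) * D.1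
      rw [Matrix.transvection, Matrix.transvection, Matrix.mul_add, Matrix.add_mul, Matrix.mul_one,
        Matrix.one_mul, show single i j s = s • single i j (1 : F) by simp, Matrix.mul_smul, hD,
        show single i j (a * s) = s • single i j a by simp [mul_comm], Matrix.smul_mul])
    rw [e, mul_inv_cancel_right, ← map_inv, ← map_mul, slLevi_inv, slLevi_mul,
      SpecialLinearGroup.transvection_inv, tv_add]
    congr 3
    show 1 = a * s + -s
    rw [← sub_eq_add_neg, ← sub_one_mul, mul_inv_cancel₀ (sub_ne_zero.mpr ha)]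

/-- A triangular element scaling the transvection. -/
theorem exists_scale (d : Fin N → Fˣ) {i j k : Fin N} (hki : k ≠ i) (hkj : k ≠ j) (hij : i ≠ j) (c : F) :
    ∃ D : GL (Fin N) F, D.1.det = ∏ x, (d x : F) ∧
      D.1 * single i j 1 = single i j ((d i : F) / d j) * D.1 ∧
      ∀ w x, (D.1 *ᵥ w) x = d x * w x + if x = i then c * d k * w k else 0 := by
  have hdet : (Matrix.transvection i k c * diagonal fun x => (d x : F)).det = ∏ x, (d x : F) := by
    rw [det_mul, det_transvection_of_ne i k hki.symm, one_mul, det_diagonal]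
  refine ⟨Matrix.GeneralLinearGroup.mkOfDetNeZero (Matrix.transvection i k c * diagonal fun x => (d x : F)) (by
    rw [hdet]; exact Finset.prod_ne_zero_iff.mpr fun x _ => (d x).ne_zero), hdet, ?_, fun w x => ?_⟩
  · show Matrix.transvection i k c * diagonal (fun x => (d x : F)) * single i j 1 =
      single i j ((d i : F) / d j) * (Matrix.transvection i k c * diagonal fun x => (d x : F))
    have h1 : diagonal (fun x => (d x : F)) * single i j 1 = single i j (d i : F) := by
      ext a b
      simp [diagonal_mul, single_apply]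
      split_ifs with h
      · rw [h.1]
      · rfl
    rw [Matrix.mul_assoc, h1, ← Matrix.mul_assoc, Matrix.transvection, Matrix.add_mul, Matrix.one_mul,
      single_mul_single_of_ne _ _ _ _ hki, add_zero, Matrix.mul_add, Matrix.mul_one,
      single_mul_single_of_ne _ _ _ _ hij.symm, add_zero]
    ext a b
    simp [mul_diagonal, single_apply]
    split_ifs with h
    · rw [← h.2, div_mul_cancel₀ _ (d j).ne_zero]
    · rfl
  · show ((Matrix.transvection i k c * diagonal fun x => (d x : F)) *ᵥ w) x = _
    rw [← mulVec_mulVec, Matrix.transvection, add_mulVec, one_mulVec, single_mulVec, Pi.add_apply,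
      mulVec_diagonal]
    by_cases hx : x = i
    · subst hx; simp [mulVec_diagonal]; ring
    · simp [hx, Function.update_of_ne]

/-- A diagonal element scaling the transvection. -/
theorem exists_diag (d : Fin N → Fˣ) (i j : Fin N) :
    ∃ D : GL (Fin N) F, D.1.det = ∏ x, (d x : F) ∧
      D.1 * single i j 1 = single i j ((d i : F) / d j) * D.1 ∧
      ∀ w x, (D.1 *ᵥ w) x = d x * w x := by
  have hdet : (diagonal fun x => (d x : F)).det = ∏ x, (d x : F) := det_diagonal
  refine ⟨Matrix.GeneralLinearGroup.mkOfDetNeZero (diagonal fun x => (d x : F)) (by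
    rw [hdet]; exact Finset.prod_ne_zero_iff.mpr fun x _ => (d x).ne_zero), hdet, ?_, fun w x => mulVec_diagonal _ _ _⟩
  show diagonal (fun x => (d x : F)) * single i j 1 = single i j ((d i : F) / d j) * diagonal fun x => (d x : F)
  ext a b
  simp [mul_diagonal, diagonal_mul, single_apply]
  split_ifs with h
  · obtain ⟨rfl, rfl⟩ := h
    rw [div_mul_cancel₀ _ (d j).ne_zero]
  · rfl

theorem exists_unit_pow_ne {e : ℕ} (he : 0 < e) (h : e + 1 < Fintype.card F) : ∃ s : Fˣ, (s : F) ^ e ≠ 1 := by
  classical
  by_contra hc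
  push Not at hc
  have hsub : (Finset.univ.image fun s : Fˣ => (s : F)) ⊆ (Polynomial.nthRoots e (1 : F)).toFinset := fun x hx => by
    obtain ⟨s, -, rfl⟩ := Finset.mem_image.mp hx
    rw [Multiset.mem_toFinset, Polynomial.mem_nthRoots he]
    exact hc s
  have h1 := (Finset.card_le_card hsub).trans ((Multiset.toFinset_card_le _).trans (Polynomial.card_nthRoots e 1))
  rw [Finset.card_image_of_injective _ Units.val_injective, Finset.card_univ, Fintype.card_units] at h1
  omega

theorem exists_sl_blk (l : Fˣ) (D : GL (Fin N) F) (h : (l : F) * D.1.det = 1) :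
    ∃ g : SpecialLinearGroup ι F, SpecialLinearGroup.toGL g = blk l D :=
  ⟨⟨(blk l D).1, by
    rw [blk_val, det_fromBlocks_zero₂₁, det_smul, det_one, Fintype.card_fin, pow_one, mul_one, h]⟩,
    Units.ext rfl⟩

theorem toGL_injective' : Function.Injective (SpecialLinearGroup.toGL : SpecialLinearGroup ι F → GL ι F) :=
  fun _ _ h => Subtype.ext (congrArg (fun x : GL ι F => x.1) h)

/-- In the general linear group. -/
theorem fixOK_gl (hq : 3 ≤ Fintype.card F) {i j : Fin N} (hij : i ≠ j) {w : Fin N → F} (hwj : w j = 0) :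
    FixOK (SpecialLinearGroup.toGL : SpecialLinearGroup ι F →* GL ι F) hij w := by
  obtain ⟨s, hs⟩ := exists_unit_pow_ne (F := F) one_pos (by omega)
  rw [pow_one] at hs
  by_cases hk : ∃ k, k ≠ i ∧ w k ≠ 0
  · obtain ⟨k, hki, hwk⟩ := hk
    have hkj : k ≠ j := fun e => hwk (e ▸ hwj)
    obtain ⟨D, -, hD, hDw⟩ := exists_scale (Function.update (fun _ => (1 : Fˣ)) i s) hki hkj hij
      ((1 - (s : F)) * w i / w k)
    refine fixOK_scale _ (MonoidHom.id _) Function.injective_id (fun x => rfl) hij hwj (l := 1) (D := D) _ rfl ?_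
      hs (by simpa [Function.update_of_ne hij.symm] using hD)
    funext x
    rw [hDw, Function.update_of_ne hki]
    by_cases hx : x = i
    · subst hx; simp; field_simp; ring
    · simp [hx]
  · push Not at hk
    obtain ⟨D, -, hD, hDw⟩ := exists_diag (Function.update (fun _ => (1 : Fˣ)) i s) i j
    refine fixOK_scale _ (MonoidHom.id _) Function.injective_id (fun x => rfl) hij hwj (l := s) (D := D) _ rfl ?_
      hs (by simpa [Function.update_of_ne hij.symm] using hD)
    funext x
    rw [hDw]
    by_cases hx : x = i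
    · subst hx; simp
    · simp [hk x hx]

/-- In the special linear group with a complement of dimension two. -/
theorem fixOK_sl_two (h2 : Fintype.card F ≠ 2) (h4 : Fintype.card F ≠ 4) {i j : Fin 2} (hij : i ≠ j)
    {w : Fin 2 → F} (hwj : w j = 0) :
    FixOK (MonoidHom.id (SpecialLinearGroup (Fin 1 ⊕ Fin 2) F)) hij w := by
  have hex : ∃ s : Fˣ, (s : F) ^ 3 ≠ 1 := by
    by_cases h3 : Fintype.card F = 3
    · refine ⟨-1, ?_⟩
      intro e
      have h12 : (2 : F) = 0 := by
        rw [Units.val_neg, Units.val_one] at e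
        linear_combination -e
      have hc := FiniteField.cast_card_eq_zero F
      rw [h3] at hc
      push_cast at hc
      exact one_ne_zero (show (1 : F) = 0 by linear_combination hc - h12)
    · have h1 := Fintype.one_lt_card (α := F)
      exact exists_unit_pow_ne (by norm_num) (by omega)
  obtain ⟨s, hs⟩ := hex
  obtain ⟨D, hdet, hD, hDw⟩ := exists_diag (Function.update (Function.update (fun _ => (1 : Fˣ)) i s) j (s⁻¹ * s⁻¹)) i j
  rw [Function.update_self, Function.update_of_ne hij, Function.update_self] at hD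
  have hprod : (s : F) * D.1.det = 1 := by
    rw [hdet, Fintype.prod_eq_mul i j hij (fun x hx => by
      exfalso
      have h0 := hx.1; have h1 := hx.2
      omega)]
    rw [Function.update_self, Function.update_of_ne hij, Function.update_self]
    push_cast
    field_simp
  obtain ⟨g, hg⟩ := exists_sl_blk s D hprod
  refine fixOK_scale _ SpecialLinearGroup.toGL toGL_injective' (fun x => rfl) hij hwj (l := s) (D := D) g hg ?_
    (a := (s : F) ^ 3) hs ?_
  · funext x
    rw [hDw]
    by_cases hx : x = i
    · subst hx; rw [Function.update_of_ne hij, Function.update_self]; rfl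
    · have hxj : x = j := by omega
      subst hxj
      simp [hwj]
  · rw [hD]
    congr 2
    push_cast
    field_simp

/-- In the special linear group with a complement of dimension at least three. -/
theorem fixOK_sl (hN : 3 ≤ N) (hq : 4 ≤ N ∨ 4 ≤ Fintype.card F) {i j : Fin N} (hij : i ≠ j)
    {w : Fin N → F} (hwj : w j = 0) : FixOK (MonoidHom.id (SpecialLinearGroup ι F)) hij w := by
  classical
  have hcard : N - 2 ≤ ((Finset.univ.erase i).erase j).card := by
    have h1 := Finset.pred_card_le_card_erase (s := Finset.univ.erase i) (a := j)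
    have h2 : (Finset.univ.erase i).card = N - 1 := by simp
    omega
  obtain ⟨k, hk⟩ : ((Finset.univ.erase i).erase j).Nonempty := Finset.card_pos.mp (by omega)
  obtain ⟨hkj, hki, -⟩ : k ≠ j ∧ k ≠ i ∧ True := by
    simp only [Finset.mem_erase, Finset.mem_univ, and_true] at hk
    exact ⟨hk.1, hk.2, trivial⟩
  by_cases hwk : w k = 0
  · exact fixOK_comm _ hij hki hkj (φ := Pi.single k 1) hwj (Pi.single_eq_of_ne hki.symm _)
      (Pi.single_eq_of_ne hkj.symm _) (by simp) (by simp [hwk])
  rcases hq with h4 | h4
  · obtain ⟨l, hl⟩ : (((Finset.univ.erase i).erase j).erase k).Nonempty :=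
      Finset.card_pos.mp (by rw [Finset.card_erase_of_mem hk]; omega)
    simp only [Finset.mem_erase, Finset.mem_univ, and_true] at hl
    obtain ⟨hlk, hlj, hli⟩ := hl
    exact fixOK_comm _ hij hli hlj (φ := Pi.single l (w k) - Pi.single k (w l)) hwj
      (by simp [hli.symm, hki.symm]) (by simp [hlj.symm, hkj.symm]) (by simp [hlk, hwk])
      (by rw [sub_dotProduct, single_dotProduct, single_dotProduct]; ring)
  · obtain ⟨s, hs⟩ := exists_unit_pow_ne (F := F) two_pos (by omega)
    obtain ⟨D, hdet, hD, hDw⟩ := exists_scale (Function.update (Function.update (fun _ => (1 : Fˣ)) i s) j s⁻¹)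
      hki hkj hij ((1 - (s : F)) * w i / w k)
    rw [Function.update_self, Function.update_of_ne hij, Function.update_self] at hD
    have hprod : ((1 : Fˣ) : F) * D.1.det = 1 := by
      rw [hdet, Fintype.prod_eq_mul i j hij (fun x hx => by simp [hx.1, hx.2]),
        Function.update_self, Function.update_of_ne hij, Function.update_self]
      push_cast
      rw [one_mul, mul_inv_cancel₀ s.ne_zero]
    obtain ⟨g, hg⟩ := exists_sl_blk 1 D hprod
    refine fixOK_scale _ SpecialLinearGroup.toGL toGL_injective' (fun x => rfl) hij hwj (l := 1) (D := D) g hg ?_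
      (a := (s : F) ^ 2) hs ?_
    · funext x
      rw [hDw, Function.update_of_ne hkj, Function.update_of_ne hki]
      by_cases hx : x = i
      · subst hx; simp [hij]; field_simp; ring
      · by_cases hxj : x = j
        · subst hxj; simp [hwj, hx]
        · simp [hx, hxj]
    · rw [hD]
      congr 2
      push_cast
      field_simp

end Cfsg.Agent.KnownA.SLMin
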