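import Mathlib

/-! Representations with a vector fixed by a point stabiliser of a doubly transitive action. -/

set_option autoImplicit false
set_option linter.unusedSectionVars false

namespace Cfsg.Agent.KnownA.SLMin

open Module MulAction

universe u v w

variable {G : Type u} [Group G] [Fintype G] [DecidableEq G] {X : Type v} [Fintype X] [DecidableEq X]
  [MulAction G X]

theorem exists_stab_move [IsMultiplyPretransitive G X 2] {a x y : X} (hx : x ≠ a) (hy : y ≠ a) :
    ∃ g : G, g • a = a ∧ g • x = y :=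
  is_two_pretransitive_iff.mp inferInstance hx.symm hy.symm

theorem sum_stab [IsMultiplyPretransitive G X 2] {V : Type w} [AddCommGroup V] (Φ : X → V) {a x y : X}
    (hx : x ≠ a) (hy : y ≠ a) :
    ∑ g ∈ Finset.univ.filter (fun g : G => g • a = a), Φ (g • x) =
      ∑ g ∈ Finset.univ.filter (fun g : G => g • a = a), Φ (g • y) := by
  obtain ⟨k, hka, hkx⟩ := exists_stab_move (G := G) hx hy
  refine Finset.sum_equiv (Equiv.mulRight k⁻¹) (fun g => ?_) fun g _ => ?_
  · simp [mul_smul, inv_smul_eq_iff.mpr hka.symm]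
  · simp [mul_smul, inv_smul_eq_iff.mpr hkx.symm]

/-- A representation without fixed vectors having a vector fixed by a point stabiliser is large. -/
theorem perm_bound [IsMultiplyPretransitive G X 2] {V : Type w} [AddCommGroup V] [Module ℂ V]
    [FiniteDimensional ℂ V] (ρ : G →* End ℂ V) (h0 : ∀ v, (∀ g, ρ g v = v) → v = 0) {a₀ : X} {v : V}
    (hv0 : v ≠ 0) (hv : ∀ g, g • a₀ = a₀ → ρ g v = v) : Fintype.card X - 1 ≤ finrank ℂ V := by
  classical
  have : IsPretransitive G X := isPretransitive_of_is_two_pretransitive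
  choose γ hγ using fun x : X => exists_smul_eq G a₀ x
  let Φ : X → V := fun x => ρ (γ x) v
  have hΦ : ∀ g x, ρ g (Φ x) = Φ (g • x) := by
    intro g x
    have h1 : ((γ (g • x))⁻¹ * g * γ x) • a₀ = a₀ := by
      rw [mul_smul, mul_smul, hγ, inv_smul_eq_iff, hγ]
    have h2 := hv _ h1
    calc ρ g (Φ x) = ρ (γ (g • x)) (ρ ((γ (g • x))⁻¹ * g * γ x) v) := by
          simp only [Φ, ← Module.End.mul_apply, ← map_mul, mul_assoc, mul_inv_cancel_left]
      _ = _ := by rw [h2]
  have hΦ0 : ∀ x, Φ x ≠ 0 := fun x e => hv0 (by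
    have := congrArg (ρ (γ x)⁻¹) e
    simpa only [Φ, ← Module.End.mul_apply, ← map_mul, inv_mul_cancel, map_one, Module.End.one_apply,
      map_zero] using this)
  let L : (X → ℂ) →ₗ[ℂ] V := Fintype.linearCombination ℂ Φ
  have hL : ∀ f, L f = ∑ x, f x • Φ x := fun f => Fintype.linearCombination_apply ℂ Φ f
  have hone : ∑ x, Φ x = 0 := h0 _ fun g => by
    rw [map_sum]
    exact Fintype.sum_equiv (MulAction.toPerm g) _ _ fun x => by simp [hΦ]
  set n := Fintype.card X
  have hker : LinearMap.ker L ≤ Submodule.span ℂ {fun _ => (1 : ℂ)} := by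
    intro f hf
    rw [LinearMap.mem_ker, hL] at hf
    refine Submodule.mem_span_singleton.mpr ⟨(∑ x, f x) / n, funext fun a => ?_⟩
    rw [Pi.smul_apply, smul_eq_mul, mul_one]
    by_cases hx : ∃ b, b ≠ a
    swap
    · push Not at hx
      have : n = 1 := Fintype.card_eq_one_iff.mpr ⟨a, hx⟩
      rw [this, Finset.sum_eq_single a (fun b _ hb => absurd (hx b) hb) (by simp)]
      simp
    obtain ⟨b, hb⟩ := hx
    set H := Finset.univ.filter (fun g : G => g • a = a)
    set K := ∑ g ∈ H, Φ (g • b)
    have hS : ∀ x, (∑ g ∈ H, Φ (g • x)) = if x = a then (H.card : ℂ) • Φ a else K := by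
      intro x
      split_ifs with h
      · subst h
        rw [Finset.sum_congr rfl fun g hg => by rw [(Finset.mem_filter.mp hg).2], Finset.sum_const,
          Nat.cast_smul_eq_nsmul]
      · exact sum_stab Φ h hb
    have avg : ∀ c : X → ℂ, (∑ x, c x • Φ x = 0) →
        (c a * H.card) • Φ a + ((∑ x, c x) - c a) • K = 0 := by
      intro c hc
      have h1 : ∑ g ∈ H, ρ g (∑ x, c x • Φ x) = 0 := by simp [hc]
      simp only [map_sum, map_smul, hΦ] at h1
      rw [Finset.sum_comm] at h1
      simp only [← Finset.smul_sum, hS] at h1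
      rw [← Finset.add_sum_erase _ _ (Finset.mem_univ a), if_pos rfl, smul_smul,
        Finset.sum_congr rfl (fun x hx => by rw [if_neg (Finset.ne_of_mem_erase hx)]), ← Finset.sum_smul,
        Finset.sum_erase_eq_sub (Finset.mem_univ a)] at h1
      exact h1
    have e1 := avg f hf
    have e2 := avg (fun _ => 1) (by simpa using hone)
    simp only [Finset.sum_const, Finset.card_univ, nsmul_eq_mul, mul_one, one_mul] at e2
    have hn1 : (n : ℂ) - 1 ≠ 0 := by
      rw [sub_ne_zero]
      exact_mod_cast (Fintype.one_lt_card_iff_nontrivial.mpr ⟨⟨b, a, hb⟩⟩).ne'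
    have hH : (H.card : ℂ) ≠ 0 :=
      Nat.cast_ne_zero.mpr (Finset.card_pos.mpr ⟨1, Finset.mem_filter.mpr ⟨Finset.mem_univ _, one_smul G a⟩⟩).ne'
    have e3 : (((f a * H.card) * ((n : ℂ) - 1)) - ((∑ x, f x) - f a) * H.card) • Φ a = 0 := by
      calc _ = ((n : ℂ) - 1) • ((f a * H.card) • Φ a + ((∑ x, f x) - f a) • K)
            - ((∑ x, f x) - f a) • ((H.card : ℂ) • Φ a + ((n : ℂ) - 1) • K) := by
              module
        _ = 0 := by rw [e1, e2, smul_zero, smul_zero, sub_zero]
    rcases smul_eq_zero.mp e3 with h | h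
    · have hn0 : (n : ℂ) ≠ 0 := Nat.cast_ne_zero.mpr (Fintype.card_pos_iff.mpr ⟨a⟩).ne'
      rw [div_eq_iff hn0]
      refine mul_left_cancel₀ hH ?_
      linear_combination -h
    · exact absurd h (hΦ0 a)
  have h1 := LinearMap.finrank_range_add_finrank_ker L
  rw [Module.finrank_fintype_fun_eq_card] at h1
  have h2 := (LinearMap.range L).finrank_le
  have h3 : finrank ℂ (LinearMap.ker L) ≤ 1 :=
    (Submodule.finrank_mono hker).trans ((finrank_span_le_card ({fun _ => (1 : ℂ)} : Set (X → ℂ))).trans (by simp))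
  omega

/-- The functions with sum zero. -/
noncomputable def aug (X : Type v) [Fintype X] : Submodule ℂ (X → ℂ) :=
  LinearMap.ker (∑ x, LinearMap.proj x : (X → ℂ) →ₗ[ℂ] ℂ)

theorem mem_aug {f : X → ℂ} : f ∈ aug X ↔ ∑ x, f x = 0 := by simp [aug]

theorem finrank_aug [Nonempty X] : finrank ℂ (aug X) = Fintype.card X - 1 := by
  have hsurj : Function.Surjective (∑ x, LinearMap.proj x : (X → ℂ) →ₗ[ℂ] ℂ) := fun c =>
    ⟨Pi.single (Classical.arbitrary X) c, by simp⟩
  have := LinearMap.finrank_range_add_finrank_ker (∑ x, LinearMap.proj x : (X → ℂ) →ₗ[ℂ] ℂ)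
  rw [LinearMap.range_eq_top.mpr hsurj, finrank_top, Module.finrank_self, Module.finrank_fintype_fun_eq_card] at this
  unfold aug
  omega

/-- The permutation representation on the functions with sum zero. -/
noncomputable def augRep (G : Type u) [Group G] (X : Type v) [Fintype X] [MulAction G X] :
    Representation ℂ G (aug X) where
  toFun g := (LinearMap.funLeft ℂ ℂ fun x : X => g⁻¹ • x).restrict fun f hf => by
    classical
    rw [mem_aug] at hf ⊢
    rw [← hf]
    exact Fintype.sum_equiv (MulAction.toPerm g⁻¹) _ _ fun x => rfl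
  map_one' := LinearMap.ext fun f => Subtype.ext (funext fun x => by simp [LinearMap.funLeft])
  map_mul' g h := LinearMap.ext fun f => Subtype.ext (funext fun x => by simp [LinearMap.funLeft, mul_smul])

theorem augRep_apply (g : G) (f : aug X) (x : X) : (augRep G X g f).1 x = f.1 (g⁻¹ • x) := rfl

/-- The functions with sum zero form an irreducible representation. -/
theorem augRep_irreducible [IsMultiplyPretransitive G X 2] (hX : 2 ≤ Fintype.card X)
    (S : Submodule ℂ (aug X)) (hS : ∀ g, ∀ f ∈ S, augRep G X g f ∈ S) : S = ⊥ ∨ S = ⊤ := by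
  classical
  have : IsPretransitive G X := isPretransitive_of_is_two_pretransitive
  by_cases hbot : S = ⊥
  · exact Or.inl hbot
  right
  obtain ⟨f, hfS, hf0⟩ := (Submodule.ne_bot_iff S).mp hbot
  obtain ⟨a, ha⟩ : ∃ a, f.1 a ≠ 0 := by
    by_contra h
    push Not at h
    exact hf0 (Subtype.ext (funext h))
  set n := Fintype.card X
  have hn : (n : ℂ) ≠ 0 := Nat.cast_ne_zero.mpr (by omega)
  let e : X → aug X := fun x => ⟨fun y => (if y = x then (1 : ℂ) else 0) - (n : ℂ)⁻¹, by
    rw [mem_aug, Finset.sum_sub_distrib, Finset.sum_ite_eq', if_pos (Finset.mem_univ _), Finset.sum_const,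
      Finset.card_univ, nsmul_eq_mul, mul_inv_cancel₀ hn, sub_self]⟩
  have hea : e a ∈ S := by
    set H := Finset.univ.filter (fun g : G => g • a = a) with hH
    let F : aug X := ∑ g ∈ H, augRep G X g f
    have hFS : F ∈ S := Submodule.sum_mem _ fun g _ => hS g f hfS
    obtain ⟨b, hb⟩ : ∃ b, b ≠ a := Fintype.exists_ne_of_one_lt_card (by omega) a
    have hinv : ∀ x, F.1 x = ∑ g ∈ H, f.1 (g • x) := by
      intro x
      simp only [F, AddSubmonoidClass.coe_finsetSum, Finset.sum_apply, augRep_apply]
      refine Finset.sum_equiv (Equiv.inv G) (fun g => ?_) fun g _ => rfl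
      simp only [hH, Finset.mem_filter, Finset.mem_univ, true_and, Equiv.inv_apply]
      rw [inv_smul_eq_iff, eq_comm]
    have hFa : F.1 a = H.card * f.1 a := by
      rw [hinv, Finset.sum_congr rfl fun g hg => by rw [(Finset.mem_filter.mp hg).2], Finset.sum_const,
        nsmul_eq_mul]
    have hFx : ∀ x, x ≠ a → F.1 x = F.1 b := fun x hx => by
      rw [hinv, hinv]; exact sum_stab f.1 hx hb
    have hsum := mem_aug.mp F.2
    rw [← Finset.add_sum_erase _ _ (Finset.mem_univ a),
      Finset.sum_congr rfl (fun x hx => hFx x (Finset.ne_of_mem_erase hx)), Finset.sum_const,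
      Finset.card_erase_of_mem (Finset.mem_univ a), Finset.card_univ, nsmul_eq_mul, Nat.cast_sub (by omega),
      Nat.cast_one] at hsum
    have hne : F.1 a - F.1 b ≠ 0 := by
      intro h
      have hzero : (n : ℂ) * F.1 a = 0 := by linear_combination hsum + ((n : ℂ) - 1) * h
      rw [mul_eq_zero, or_iff_right hn, hFa, mul_eq_zero] at hzero
      exact hzero.elim (fun h' => by
        rw [Nat.cast_eq_zero, Finset.card_eq_zero] at h'
        exact absurd (h' ▸ Finset.mem_filter.mpr ⟨Finset.mem_univ 1, one_smul G a⟩ : (1 : G) ∈ (∅ : Finset G))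
          (Finset.notMem_empty _)) ha
    have heq : F = (F.1 a - F.1 b) • e a := by
      refine Subtype.ext (funext fun x => ?_)
      show F.1 x = (F.1 a - F.1 b) * ((if x = a then (1 : ℂ) else 0) - (n : ℂ)⁻¹)
      by_cases hx : x = a
      · subst hx
        rw [if_pos rfl]
        field_simp
        linear_combination hsum
      · rw [if_neg hx, hFx x hx]
        field_simp
        linear_combination hsum
    rw [heq] at hFS
    simpa [smul_smul, inv_mul_cancel₀ hne] using S.smul_mem (F.1 a - F.1 b)⁻¹ hFS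
  have hall : ∀ x, e x ∈ S := fun x => by
    obtain ⟨g, rfl⟩ := exists_smul_eq G a x
    convert hS g _ hea using 1
    refine Subtype.ext (funext fun y => ?_)
    rw [augRep_apply]
    simp only [e, inv_smul_eq_iff]
  rw [eq_top_iff]
  rintro F -
  have hF : F = ∑ x, F.1 x • e x := by
    refine Subtype.ext (funext fun y => ?_)
    simp only [AddSubmonoidClass.coe_finsetSum, Finset.sum_apply, SetLike.val_smul, Pi.smul_apply, smul_eq_mul,
      e, mul_sub, Finset.sum_sub_distrib, ← Finset.sum_mul, mem_aug.mp F.2, zero_mul, sub_zero, mul_ite, mul_one,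
      mul_zero, Finset.sum_ite_eq, Finset.mem_univ, if_true]
  rw [hF]
  exact Submodule.sum_mem _ fun x _ => S.smul_mem _ (hall x)

end Cfsg.Agent.KnownA.SLMin
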