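import Cfsg.Agent.KnownA.SLMin.Base
import Cfsg.Agent.KnownA.SLMin.Perm

/-! The fixed space of the radical as a representation of the Levi factor and the exceptional small case. -/

set_option autoImplicit false
set_option linter.unusedSectionVars false

namespace Cfsg.Agent.KnownA.SLMin

open Matrix Module
open scoped LinearAlgebra.Projectivization

variable {F : Type*} [Field F] [Fintype F] [DecidableEq F] {N : ℕ}
  {V : Type*} [AddCommGroup V] [Module ℂ V] [FiniteDimensional ℂ V]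
  (σ : SpecialLinearGroup (Fin 1 ⊕ Fin N) F →* End ℂ V) {t : ℂ}
  (ht : ∀ g, IsTv g.1 → LinearMap.trace ℂ V (σ g) = t)

/-- The projection on the fixed space of the radical. -/
noncomputable def P0 : End ℂ V :=
  (radFrame σ (MonoidHom.id _) (fun _v hv => ht _ (isTv_slUni hv))).proj 0

theorem P0_idem : IsIdempotentElem (P0 σ ht) := Frame.isIdempotent_proj _ _

theorem P0_comm (D : GL (Fin N) F) : σ.comp lev D * P0 σ ht = P0 σ ht * σ.comp lev D :=
  proj_zero_comm σ (MonoidHom.id _) _ (norms_lev D)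

/-- The action of the Levi factor on the fixed space of the radical. -/
noncomputable def tau : GL (Fin N) F →* End ℂ (LinearMap.range (P0 σ ht)) :=
  rangeRep (σ.comp lev) (P0_comm σ ht)

theorem slUni_fix {x : V} (hx : x ∈ LinearMap.range (P0 σ ht)) (v : Fin N → F) : σ (slUni v) x = x := by
  obtain ⟨y, rfl⟩ := hx
  have h := (radFrame σ (MonoidHom.id _) (fun _v hv => ht _ (isTv_slUni hv))).op_proj 0 v
  rw [AddChar.zero_apply, one_smul] at h
  exact LinearMap.congr_fun h y

theorem tau_apply (D : GL (Fin N) F) (x : LinearMap.range (P0 σ ht)) :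
    ((tau σ ht D x : LinearMap.range (P0 σ ht)) : V) = σ (lev D) x.1 := rfl

/-- The data on the fixed space of the radical. -/
theorem reduce {i j : Fin N} (hij : i ≠ j)
    (hfix : ∀ w : Fin N → F, w ≠ 0 → w j = 0 →
      FixOK (MonoidHom.id (SpecialLinearGroup (Fin 1 ⊕ Fin N) F)) hij w)
    (hm : (finrank ℂ V : ℂ) - t = (Fintype.card F : ℂ) ^ N) :
    ∃ c : ℕ, finrank ℂ V = c + (Fintype.card F ^ N - 1) ∧ t = (c : ℂ) - 1 ∧
      finrank ℂ (LinearMap.range (P0 σ ht)) = c ∧
      LinearMap.trace ℂ _ (tau σ ht (SpecialLinearGroup.toGL (SpecialLinearGroup.transvection hij (1 : F)))) =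
        (c : ℂ) - (Fintype.card F ^ (N - 1) : ℕ) := by
  obtain ⟨c, h1, h2, h3, h4⟩ := step σ (MonoidHom.id _) (fun _v hv => ht _ (isTv_slUni hv)) hij i.pos
    (ht _ (isTv_slLevi hij one_ne_zero)) hfix hm
  refine ⟨c, ?_, h2, finrank_range (P0_idem σ ht) h3, ?_⟩
  · have hpos : 1 ≤ Fintype.card F ^ N := Nat.one_le_pow _ _ Fintype.card_pos
    have h : ((finrank ℂ V : ℕ) : ℂ) = ((c + (Fintype.card F ^ N - 1) : ℕ) : ℂ) := by
      rw [h1]; push_cast [Nat.cast_sub hpos]; ring
    exact_mod_cast h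
  · rw [tau, trace_rangeRep _ _ (P0_idem σ ht), Nat.cast_pow]
    show LinearMap.trace ℂ V (σ (lev (SpecialLinearGroup.toGL _)) * _) = _
    rw [lev_toGL]
    exact h4

omit σ ht in
/-- An element fixing the first basis vector. -/
theorem eq_uni_levi {g : SpecialLinearGroup (Fin 1 ⊕ Fin N) F}
    (h : g.1 *ᵥ Pi.single (Sum.inl 0) 1 = Pi.single (Sum.inl 0) 1) :
    ∃ v B, g = slLevi B * slUni v := by
  have hcol : ∀ a, g.1 a (Sum.inl 0) = (Pi.single (Sum.inl 0) 1 : Fin 1 ⊕ Fin N → F) a := fun a => by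
    have := congrFun h a
    rwa [mulVec_single_one, Matrix.col_apply] at this
  have h11 : g.1.toBlocks₁₁ = 1 := by
    ext a b
    rw [Fin.fin_one_eq_zero a, Fin.fin_one_eq_zero b]
    simpa [toBlocks₁₁] using hcol (Sum.inl 0)
  have h21 : g.1.toBlocks₂₁ = 0 := by
    ext a b
    rw [Fin.fin_one_eq_zero b]
    simpa [toBlocks₂₁] using hcol (Sum.inr a)
  have hg : g.1 = fromBlocks 1 g.1.toBlocks₁₂ 0 g.1.toBlocks₂₂ := by
    conv_lhs => rw [← fromBlocks_toBlocks g.1, h11, h21]
  have hd : g.1.toBlocks₂₂.det = 1 := by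
    have := g.2
    rw [hg, det_fromBlocks_zero₂₁, det_one, one_mul] at this
    exact this
  refine ⟨fun k => g.1.toBlocks₁₂ 0 k, ⟨g.1.toBlocks₂₂, hd⟩, Subtype.ext ?_⟩
  show g.1 = fromBlocks 1 0 0 g.1.toBlocks₂₂ * fromBlocks 1 _ 0 1
  rw [fromBlocks_multiply]
  conv_lhs => rw [hg]
  simp only [Matrix.mul_one, Matrix.one_mul, Matrix.mul_zero, Matrix.zero_mul, add_zero, zero_add]
  congr 1
  ext a b
  rw [Fin.fin_one_eq_zero a]
  rfl

omit σ ht in
/-- Over two elements, a vector fixed by the radical and the Levi factor forces a large degree. -/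
theorem perm_two (hF : Fintype.card F = 2) (hN : 2 ≤ N) {W : Type*} [AddCommGroup W] [Module ℂ W]
    [FiniteDimensional ℂ W] (ρ : SpecialLinearGroup (Fin 1 ⊕ Fin N) F →* End ℂ W)
    (h0 : ∀ v, (∀ g, ρ g v = v) → v = 0) {v : W} (hv : v ≠ 0) (hU : ∀ x, ρ (slUni x) v = v)
    (hL : ∀ B, ρ (slLevi B) v = v) : 2 ^ (N + 1) - 2 ≤ finrank ℂ W := by
  classical
  have : Finite (ℙ F (Fin 1 ⊕ Fin N → F)) := inferInstance
  let _ := Fintype.ofFinite (ℙ F (Fin 1 ⊕ Fin N → F))
  have he : (Pi.single (Sum.inl 0) 1 : Fin 1 ⊕ Fin N → F) ≠ 0 := by simp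
  have hb := perm_bound (G := SpecialLinearGroup (Fin 1 ⊕ Fin N) F) ρ h0
    (a₀ := Projectivization.mk F _ he) hv fun g hg => by
      have h1 : g.1 *ᵥ Pi.single (Sum.inl 0) 1 = (Pi.single (Sum.inl 0) 1 : Fin 1 ⊕ Fin N → F) := by
        rw [Projectivization.smul_mk, Projectivization.mk_eq_mk_iff] at hg
        obtain ⟨u, hu⟩ := hg
        have hu1 : u = 1 := by
          have : Subsingleton Fˣ := Fintype.card_le_one_iff_subsingleton.mp (by rw [Fintype.card_units, hF])
          exact Subsingleton.elim _ _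
        rw [hu1, one_smul] at hu
        exact hu.symm
      obtain ⟨x, B, rfl⟩ := eq_uni_levi h1
      rw [map_mul, Module.End.mul_apply, hU, hL]
  refine le_trans (le_of_eq ?_) hb
  have h1 : Fintype.card (ℙ F (Fin 1 ⊕ Fin N → F)) = 2 ^ (N + 1) - 1 := by
    rw [← Nat.card_eq_fintype_card, Projectivization.card'']
    simp [hF, Nat.card_eq_fintype_card, add_comm 1 N]
  omega

omit σ ht in
/-- The small representation of the Levi factor over two elements has a fixed vector. -/
theorem exists_fixed_five_two (hF : Fintype.card F = 2) {W : Type*} [AddCommGroup W] [Module ℂ W]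
    [FiniteDimensional ℂ W] (ρ : SpecialLinearGroup (Fin 1 ⊕ Fin 3) F →* End ℂ W) (hW : finrank ℂ W = 9)
    {i j : Fin 3} (hij : i ≠ j) (h1 : LinearMap.trace ℂ W (ρ (slLevi (SpecialLinearGroup.transvection hij 1))) = 1) :
    ∃ v, v ≠ 0 ∧ ∀ g, ρ g v = v := by
  classical
  have hρ : ∃ g, ρ g ≠ 1 := ⟨slLevi (SpecialLinearGroup.transvection hij 1), fun e => by
    rw [e, LinearMap.trace_one, hW] at h1
    norm_num at h1⟩
  have hc : ∀ g, IsTv g.1 → LinearMap.trace ℂ W (ρ g) = 1 := fun g hg =>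
    (conj_trace ρ (isConj_of_isTv (by norm_num) hg (isTv_slLevi hij one_ne_zero))).trans h1
  set S := radFrame ρ (MonoidHom.id _) (fun _v hv => hc _ (isTv_slUni hv))
  obtain ⟨c, m, hc0, -, hdim, htm⟩ := S.exists_cm
  replace htm : (1 : ℂ) = (c : ℂ) - m := htm
  rw [Fintype.card_fun, Fintype.card_fin, hF, hW] at hdim
  norm_num at hdim
  have hc2 : (c : ℂ) = 2 := by linear_combination -(1 / 8 : ℂ) * hdim - (7 / 8 : ℂ) * htm
  have hc2' : c = 2 := by exact_mod_cast hc2
  have hr : finrank ℂ (LinearMap.range (P0 ρ hc)) = 2 := hc2' ▸ finrank_range (P0_idem ρ hc) hc0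
  let φ : SpecialLinearGroup (Fin 1 ⊕ Fin 2) F →* End ℂ (LinearMap.range (P0 ρ hc)) :=
    (tau ρ hc).comp (SpecialLinearGroup.toGL.comp (reix (F := F) (N := 2)).toMonoidHom)
  have hφ : ∀ g, φ g = 1 := by
    by_contra h
    push Not at h
    have := base_bound (by norm_num) φ h
    rw [hr, hF] at this
    norm_num at this
  have : Nontrivial (LinearMap.range (P0 ρ hc)) := Module.nontrivial_of_finrank_pos (R := ℂ) (by omega)
  obtain ⟨x, hx⟩ := exists_ne (0 : LinearMap.range (P0 ρ hc))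
  by_contra hnone
  push Not at hnone
  have h0 : ∀ v, (∀ g, ρ g v = v) → v = 0 := fun v hv => by
    by_contra hne
    obtain ⟨g, hg⟩ := hnone v hne
    exact hg (hv g)
  have := perm_two hF (by norm_num) ρ h0 (v := x.1) (fun e => hx (Subtype.ext e))
    (fun y => slUni_fix ρ hc x.2 y) (fun B => by
      have := congrArg Subtype.val (LinearMap.congr_fun (hφ ((reix (F := F) (N := 2)).symm B)) x)
      simp only [φ, MonoidHom.comp_apply, MulEquiv.coe_toMonoidHom, MulEquiv.apply_symm_apply,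
        Module.End.one_apply] at this
      rw [tau_apply, lev_toGL] at this
      exact this)
  rw [hW] at this
  norm_num at this

end Cfsg.Agent.KnownA.SLMin
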