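import Mathlib

/-!
An abelian group acting on a complex vector space with the same trace at all non-identity elements.
-/

set_option autoImplicit false
set_option linter.unusedSectionVars false

namespace Cfsg.Agent.KnownA.SLMin

open Module

/-- An additive family of operators with constant trace away from zero. -/
structure Frame (A V : Type*) [AddCommGroup A] [AddCommGroup V] [Module ℂ V] where
  /-- The operator of an element. -/
  op : A → End ℂ V
  op_add : ∀ x y, op (x + y) = op x * op y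
  op_zero : op 0 = 1
  t : ℂ
  trace_op : ∀ x, x ≠ 0 → LinearMap.trace ℂ V (op x) = t

variable {A V : Type*} [AddCommGroup A] [Fintype A] [DecidableEq A] [AddCommGroup V] [Module ℂ V]
  [FiniteDimensional ℂ V] (S : Frame A V)

namespace Frame

/-- The projection onto the eigenvectors of a character. -/
noncomputable def proj (ψ : AddChar A ℂ) : End ℂ V :=
  (Fintype.card A : ℂ)⁻¹ • ∑ x, ψ (-x) • S.op x

omit [DecidableEq A] in
theorem card_ne : (Fintype.card A : ℂ) ≠ 0 := Nat.cast_ne_zero.mpr Fintype.card_ne_zero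

theorem op_proj (ψ : AddChar A ℂ) (y : A) : S.op y * S.proj ψ = ψ y • S.proj ψ := by
  rw [proj, mul_smul_comm, Finset.mul_sum]
  rw [smul_comm (ψ y), Finset.smul_sum (r := ψ y)]
  congr 1
  refine Fintype.sum_equiv (Equiv.addLeft y) _ _ fun x => ?_
  rw [Equiv.coe_addLeft, mul_smul_comm, ← S.op_add, smul_smul, ← AddChar.map_add_eq_mul]
  congr 2
  simp

theorem proj_mul_proj (ψ χ : AddChar A ℂ) :
    S.proj ψ * S.proj χ = if ψ = χ then S.proj χ else 0 := by
  classical
  conv_lhs => rw [proj]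
  rw [smul_mul_assoc, Finset.sum_mul]
  simp only [smul_mul_assoc, S.op_proj, smul_smul]
  rw [← Finset.sum_smul, smul_smul]
  have h : ∀ x, ψ (-x) * χ x = (χ * ψ⁻¹) x := fun x => by
    rw [AddChar.mul_apply, AddChar.inv_apply, mul_comm]
  simp only [h, AddChar.sum_eq_ite]
  by_cases he : ψ = χ
  · subst he
    rw [if_pos rfl, if_pos (show ψ * ψ⁻¹ = 0 by rw [mul_inv_cancel]; rfl), inv_mul_cancel₀ card_ne, one_smul]
  · rw [if_neg he, if_neg, mul_zero, zero_smul]
    intro e
    exact he (mul_inv_eq_one.mp e).symm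

theorem isIdempotent_proj (ψ : AddChar A ℂ) : IsIdempotentElem (S.proj ψ) := by
  rw [IsIdempotentElem, S.proj_mul_proj, if_pos rfl]

theorem sum_proj : ∑ ψ : AddChar A ℂ, S.proj ψ = 1 := by
  classical
  simp only [proj, ← Finset.smul_sum]
  rw [Finset.sum_comm]
  simp only [← Finset.sum_smul]
  rw [Finset.sum_eq_single (0 : A)]
  · rw [neg_zero, AddChar.sum_apply_eq_ite, if_pos rfl, S.op_zero, smul_smul, inv_mul_cancel₀ card_ne,
      one_smul]
  · intro x _ hx
    rw [AddChar.sum_apply_eq_ite, if_neg (neg_ne_zero.mpr hx), zero_smul]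
  · simp

theorem card_mul_trace_proj (ψ : AddChar A ℂ) :
    (Fintype.card A : ℂ) * LinearMap.trace ℂ V (S.proj ψ) =
      (finrank ℂ V : ℂ) + S.t * ((if ψ = 0 then (Fintype.card A : ℂ) else 0) - 1) := by
  classical
  rw [proj, map_smul, smul_eq_mul, ← mul_assoc, mul_inv_cancel₀ card_ne, one_mul, map_sum]
  have h : ∀ x, LinearMap.trace ℂ V (ψ (-x) • S.op x) =
      S.t * ψ (-x) + if x = 0 then (finrank ℂ V : ℂ) - S.t else 0 := by
    intro x
    rw [map_smul, smul_eq_mul]
    by_cases hx : x = 0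
    · subst hx
      rw [if_pos rfl, S.op_zero, LinearMap.trace_one, neg_zero, AddChar.map_zero_eq_one]
      ring
    · rw [if_neg hx, S.trace_op x hx]; ring
  rw [Finset.sum_congr rfl fun x _ => h x, Finset.sum_add_distrib, Finset.sum_ite_eq', if_pos (Finset.mem_univ _),
    ← Finset.mul_sum, Fintype.sum_equiv (Equiv.neg A) (fun x => ψ (-x)) (fun x => ψ x) (fun x => rfl),
    AddChar.sum_eq_ite]
  ring

theorem exists_rank (ψ : AddChar A ℂ) :
    ∃ r : ℕ, LinearMap.trace ℂ V (S.proj ψ) = r :=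
  ⟨_, (LinearMap.IsIdempotentElem.isProj_range (S.proj ψ) (S.isIdempotent_proj ψ)).trace⟩

/-- The fixed space has dimension `c`, every other eigenspace dimension `m`. -/
theorem exists_cm [Nontrivial A] : ∃ c m : ℕ,
    LinearMap.trace ℂ V (S.proj 0) = c ∧ (∀ ψ, ψ ≠ 0 → LinearMap.trace ℂ V (S.proj ψ) = m) ∧
      (finrank ℂ V : ℂ) = (c : ℂ) + ((Fintype.card A : ℂ) - 1) * m ∧ S.t = (c : ℂ) - m := by
  classical
  obtain ⟨c, hc⟩ := S.exists_rank 0
  have h0 := S.card_mul_trace_proj 0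
  rw [if_pos rfl, hc] at h0
  have : Nontrivial (AddChar A ℂ) := Fintype.one_lt_card_iff_nontrivial.mp (by
    rw [AddChar.card_eq]; exact Fintype.one_lt_card)
  obtain ⟨ψ, hψ⟩ := exists_ne (0 : AddChar A ℂ)
  obtain ⟨m, hm⟩ := S.exists_rank ψ
  have h1 := S.card_mul_trace_proj ψ
  rw [if_neg hψ, hm] at h1
  have hn := card_ne (A := A)
  have ht : S.t = (c : ℂ) - m := by
    refine mul_left_cancel₀ hn ?_
    linear_combination h1 - h0
  refine ⟨c, m, hc, fun χ hχ => ?_, ?_, ht⟩
  · have h2 := S.card_mul_trace_proj χ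
    rw [if_neg hχ, ← h1] at h2
    exact mul_left_cancel₀ hn h2
  · rw [ht] at h1
    linear_combination -h1

/-- Endomorphisms commuting with a projection of rank one act on it by scalars. -/
theorem smul_of_rank_one {P T : End ℂ V} (hP : IsIdempotentElem P) (h1 : LinearMap.trace ℂ V P = 1)
    (hT : T * P = P * T) : ∃ s : ℂ, T * P = s • P := by
  have hproj := LinearMap.IsIdempotentElem.isProj_range P hP
  have hr : finrank ℂ (LinearMap.range P) = 1 := by
    have := hproj.trace
    rw [h1] at this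
    exact_mod_cast this.symm
  obtain ⟨v, hv, hspan⟩ := finrank_eq_one_iff'.mp hr
  obtain ⟨s, hs⟩ := hspan ⟨T v.1, ⟨T v.1, by
    have := LinearMap.congr_fun hT v.1
    rw [Module.End.mul_apply, Module.End.mul_apply, hproj.map_id v.1 v.2] at this
    exact this.symm⟩⟩
  refine ⟨s, LinearMap.ext fun x => ?_⟩
  obtain ⟨a, ha⟩ := hspan ⟨P x, ⟨x, rfl⟩⟩
  have ha' : a • v.1 = P x := congrArg Subtype.val ha
  have hs' : s • v.1 = T v.1 := congrArg Subtype.val hs
  rw [Module.End.mul_apply, LinearMap.smul_apply, ← ha', map_smul, ← hs', smul_comm]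

/-- A commutator of operators commuting with a projection of rank one fixes it. -/
theorem commutator_mul_proj {G : Type*} [Group G] (ρ : G →* End ℂ V) {P : End ℂ V} (hP : IsIdempotentElem P)
    (h1 : LinearMap.trace ℂ V P = 1) {g h : G} (hg : ρ g * P = P * ρ g) (hh : ρ h * P = P * ρ h) :
    ρ (g * h * g⁻¹ * h⁻¹) * P = P := by
  obtain ⟨a, ha⟩ := smul_of_rank_one hP h1 hg
  obtain ⟨b, hb⟩ := smul_of_rank_one hP h1 hh
  have hP0 : P ≠ 0 := fun e => by simp [e] at h1
  have ha' : a • (ρ g⁻¹ * P) = P := by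
    rw [← mul_smul_comm, ← ha, ← mul_assoc, ← map_mul, inv_mul_cancel, map_one, one_mul]
  have hb' : b • (ρ h⁻¹ * P) = P := by
    rw [← mul_smul_comm, ← hb, ← mul_assoc, ← map_mul, inv_mul_cancel, map_one, one_mul]
  have ha0 : a ≠ 0 := fun e => hP0 (by rw [← ha', e, zero_smul])
  have hb0 : b ≠ 0 := fun e => hP0 (by rw [← hb', e, zero_smul])
  have eg : ρ g⁻¹ * P = a⁻¹ • P := by
    conv_rhs => rw [← ha', smul_smul, inv_mul_cancel₀ ha0, one_smul]
  have eh : ρ h⁻¹ * P = b⁻¹ • P := by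
    conv_rhs => rw [← hb', smul_smul, inv_mul_cancel₀ hb0, one_smul]
  rw [map_mul, map_mul, map_mul, mul_assoc, eh, mul_smul_comm, mul_assoc, eg, mul_smul_comm,
    mul_assoc, hb, mul_smul_comm, ha]
  simp only [smul_smul]
  rw [show b⁻¹ * (a⁻¹ * (b * a)) = 1 by field_simp, one_smul]

/-- An operator normalising the family permutes the projections. -/
theorem mul_proj {T : End ℂ V} (φ : A ≃+ A) (hT : ∀ x, T * S.op x = S.op (φ x) * T) (ψ : AddChar A ℂ) :
    T * S.proj ψ = S.proj (ψ.compAddMonoidHom φ.symm.toAddMonoidHom) * T := by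
  rw [proj, proj, mul_smul_comm, smul_mul_assoc, Finset.mul_sum, Finset.sum_mul]
  congr 1
  refine Fintype.sum_equiv φ.toEquiv _ _ fun x => ?_
  simp [hT, ← map_neg]

/-- The trace of a normalising operator which fixes each stable eigenspace pointwise. -/
theorem trace_eq {T : End ℂ V} (φ : A ≃+ A) (hT : ∀ x, T * S.op x = S.op (φ x) * T) {m : ℂ}
    (hm : ∀ ψ, ψ ≠ 0 → LinearMap.trace ℂ V (S.proj ψ) = m)
    (hfix : ∀ ψ, ψ ≠ 0 → (∀ x, ψ (φ x) = ψ x) → T * S.proj ψ = S.proj ψ) :
    LinearMap.trace ℂ V T = LinearMap.trace ℂ V (T * S.proj 0) +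
      m * ((Fintype.card {x : A // φ x = x} : ℂ) - 1) := by
  classical
  conv_lhs => rw [← mul_one T, ← S.sum_proj, Finset.mul_sum, map_sum]
  rw [← Finset.add_sum_erase _ _ (Finset.mem_univ (0 : AddChar A ℂ))]
  congr 1
  have h : ∀ ψ ∈ Finset.univ.erase (0 : AddChar A ℂ), LinearMap.trace ℂ V (T * S.proj ψ) =
      if ∀ x, ψ (φ x) = ψ x then m else 0 := by
    intro ψ hψ
    have h0 := Finset.ne_of_mem_erase hψ
    split_ifs with hs
    · rw [hfix ψ h0 hs, hm ψ h0]
    · set χ := ψ.compAddMonoidHom φ.symm.toAddMonoidHom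
      have hne : ψ ≠ χ := fun e => hs fun x => by
        conv_lhs => rw [e]
        simp [χ]
      rw [show T * S.proj ψ = T * S.proj ψ * S.proj ψ by rw [mul_assoc, S.isIdempotent_proj ψ],
        LinearMap.trace_mul_comm, S.mul_proj φ hT, ← mul_assoc, S.proj_mul_proj, if_neg hne, zero_mul, map_zero]
  rw [Finset.sum_congr rfl h, ← Finset.sum_filter, Finset.sum_const, nsmul_eq_mul, mul_comm]
  congr 1
  have hfilter : (Finset.univ.erase (0 : AddChar A ℂ)).filter (fun ψ => ∀ x, ψ (φ x) = ψ x) =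
      (Finset.univ.filter fun ψ : AddChar A ℂ => ∀ x, ψ (φ x) = ψ x).erase 0 := Finset.filter_erase _ _ _
  have h0mem : (0 : AddChar A ℂ) ∈ Finset.univ.filter fun ψ : AddChar A ℂ => ∀ x, ψ (φ x) = ψ x := by simp
  rw [hfilter, Finset.card_erase_of_mem h0mem, Nat.cast_sub (Finset.card_pos.mpr ⟨_, h0mem⟩), Nat.cast_one]
  congr 1
  let D : A →+ A := φ.toAddMonoidHom - AddMonoidHom.id A
  have hind : ∀ ψ : AddChar A ℂ, (∑ x, ψ (D x)) =
      if (∀ x, ψ (φ x) = ψ x) then (Fintype.card A : ℂ) else 0 := by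
    intro ψ
    have := AddChar.sum_eq_ite (ψ.compAddMonoidHom D)
    simp only [AddChar.compAddMonoidHom_apply] at this
    rw [this]
    refine if_congr ⟨fun e x => ?_, fun e => AddChar.ext _ _ fun x => ?_⟩ rfl rfl
    · have h1 : ψ (φ x - x) = 1 := congrArg (fun χ : AddChar A ℂ => χ x) e
      rw [AddChar.map_sub_eq_div] at h1
      exact eq_of_div_eq_one h1
    · show ψ (φ x - x) = 1
      rw [AddChar.map_sub_eq_div, e x, div_self (AddChar.val_isUnit ψ x).ne_zero]
  have hsum : ∑ ψ : AddChar A ℂ, ∑ x, ψ (D x) =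
      (Fintype.card A : ℂ) * (Fintype.card {x : A // φ x = x} : ℂ) := by
    rw [Finset.sum_comm]
    simp only [AddChar.sum_apply_eq_ite, D, AddMonoidHom.sub_apply, AddEquiv.coe_toAddMonoidHom,
      AddMonoidHom.id_apply, sub_eq_zero]
    rw [← Finset.sum_filter, Finset.sum_const, nsmul_eq_mul, Fintype.card_subtype, mul_comm]
  simp only [hind] at hsum
  rw [← Finset.sum_filter, Finset.sum_const, nsmul_eq_mul, mul_comm] at hsum
  exact mul_left_cancel₀ card_ne hsum

end Frame

end Cfsg.Agent.KnownA.SLMin
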