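import Cfsg.Agent.KnownA.SLMin.Exc
import Cfsg.Agent.KnownA.SLMin.Constituent
import Cfsg.Agent.KnownA.SLMin.Arith

/-! The minimal degree of a nontrivial complex representation of `SL`. -/

set_option autoImplicit false
set_option linter.unusedSectionVars false

universe v

namespace Cfsg.Agent.KnownA.SLMin

open Matrix Module

variable {F : Type*} [Field F] [Fintype F] [DecidableEq F]

/-- The block element with corner one, as a homomorphism. -/
noncomputable def blkHom {M : ℕ} : GL (Fin M) F →* GL (Fin 1 ⊕ Fin M) F :=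
  MonoidHom.mk' (fun D => blk 1 D) fun a b => Units.ext (by
    show fromBlocks _ _ _ _ = fromBlocks _ _ _ _ * fromBlocks _ _ _ _
    simp [fromBlocks_multiply])

theorem blkHom_toGL {M : ℕ} (B : SpecialLinearGroup (Fin M) F) :
    blkHom (SpecialLinearGroup.toGL B) = SpecialLinearGroup.toGL (slLevi B) := Units.ext (by
  show fromBlocks _ _ _ _ = fromBlocks _ _ _ _
  simp)

/-- The bound on the second stage. -/
theorem inner {M : ℕ} (hM : 2 ≤ M) (hq : 3 ≤ Fintype.card F) {V : Type*} [AddCommGroup V] [Module ℂ V]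
    [FiniteDimensional ℂ V] (ρ : GL (Fin (1 + M)) F →* End ℂ V) {a b : Fin (1 + M)} (hab : a ≠ b)
    (h : LinearMap.trace ℂ V (ρ (SpecialLinearGroup.toGL (SpecialLinearGroup.transvection hab (1 : F)))) =
      (finrank ℂ V : ℂ) - (Fintype.card F ^ M : ℕ)) :
    ∃ c, finrank ℂ V = c + (Fintype.card F ^ M - 1) ∧
      (Fintype.card F - 1) * Fintype.card F ^ (M - 1) ≤ Fintype.card F * c := by
  set t : ℂ := (finrank ℂ V : ℂ) - (Fintype.card F ^ M : ℕ) with hteq
  have hc : ∀ g : SpecialLinearGroup (Fin 1 ⊕ Fin M) F, IsTv g.1 →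
      LinearMap.trace ℂ V (ρ.comp reixGL (SpecialLinearGroup.toGL g)) = t := fun g hg => by
    rw [MonoidHom.comp_apply, reixGL_toGL]
    exact (trace_const_fin (by omega) (ρ.comp SpecialLinearGroup.toGL) (isTv_reix hg)
      (isTv_transvection hab one_ne_zero)).trans h
  set i : Fin M := ⟨0, by omega⟩
  set j : Fin M := ⟨1, by omega⟩
  have hij : i ≠ j := by simp [i, j]
  let f : SpecialLinearGroup (Fin 1 ⊕ Fin M) F →* GL (Fin 1 ⊕ Fin M) F := SpecialLinearGroup.toGL
  have ht : ∀ v, v ≠ 0 → LinearMap.trace ℂ V (ρ.comp reixGL (f (slUni v))) = t :=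
    fun v hv => hc _ (isTv_slUni hv)
  obtain ⟨c, h1, h2, h3, h4⟩ := step (ρ.comp reixGL) f ht hij (by omega) (hc _ (isTv_slLevi hij one_ne_zero))
    (fun w _ hw => fixOK_gl hq hij hw) (by rw [hteq, Nat.cast_pow]; ring)
  let P := (radFrame (ρ.comp reixGL) f ht).proj 0
  have hcomm : ∀ D, (ρ.comp reixGL).comp blkHom D * P = P * (ρ.comp reixGL).comp blkHom D := fun D =>
    proj_zero_comm (ρ.comp reixGL) f ht (g := blkHom D) (M := blkAct 1 D) (blk_slUni 1 D)
  have hP : IsIdempotentElem P := Frame.isIdempotent_proj _ _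
  have hr : finrank ℂ (LinearMap.range P) = c := finrank_range hP h3
  refine ⟨c, ?_, hr ▸ root_avg (rangeRep _ hcomm) hij (Fintype.card F ^ (M - 1)) ?_⟩
  · have hpos : 1 ≤ Fintype.card F ^ M := Nat.one_le_pow _ _ Fintype.card_pos
    have h' : ((finrank ℂ V : ℕ) : ℂ) = ((c + (Fintype.card F ^ M - 1) : ℕ) : ℂ) := by
      rw [h1]; push_cast [Nat.cast_sub hpos]; ring
    exact_mod_cast h'
  · rw [trace_rangeRep _ _ hP, hr, MonoidHom.comp_apply, blkHom_toGL, Nat.cast_pow]
    exact h4

theorem card_ne_ten : Fintype.card F ≠ 10 := by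
  intro h
  obtain ⟨p, hp⟩ := CharP.exists F
  obtain ⟨e, hprime, he⟩ := FiniteField.card F p
  rw [h] at he
  have h2 : 2 ∣ p ^ (e : ℕ) := ⟨5, he.symm⟩
  have h5 : 5 ∣ p ^ (e : ℕ) := ⟨2, he.symm⟩
  have a := (Nat.prime_dvd_prime_iff_eq Nat.prime_two hprime).mp (Nat.prime_two.dvd_of_dvd_pow h2)
  have b := (Nat.prime_dvd_prime_iff_eq Nat.prime_five hprime).mp (Nat.prime_five.dvd_of_dvd_pow h5)
  omega

/-- The excluded cases. -/
def Exc (q N : ℕ) : Prop := (N = 2 ∧ (q = 2 ∨ q = 4)) ∨ (N = 3 ∧ (q = 2 ∨ q = 3))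

theorem irr_bound {N : ℕ} (hN : 2 ≤ N) (hex : ¬ Exc (Fintype.card F) N)
    (ih : ∀ M, M < N → 2 ≤ M → ¬ Exc (Fintype.card F) M → ∀ (W : Type v) [AddCommGroup W] [Module ℂ W]
      [FiniteDimensional ℂ W] (τ : SpecialLinearGroup (Fin 1 ⊕ Fin M) F →* End ℂ W), (∃ g, τ g ≠ 1) →
      tgt (Fintype.card F) M ≤ finrank ℂ W)
    {V : Type v} [AddCommGroup V] [Module ℂ V] [FiniteDimensional ℂ V]
    (σ : Representation ℂ (SpecialLinearGroup (Fin 1 ⊕ Fin N) F) V) [σ.IsIrreducible]
    (hσ : ∃ g, σ g ≠ 1) : tgt (Fintype.card F) N ≤ finrank ℂ V := by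
  classical
  set q := Fintype.card F with hqdef
  have hq2 : 2 ≤ q := Fintype.one_lt_card
  by_contra hlt
  push Not at hlt
  obtain ⟨t, m, hm1, ht, hle, hkt⟩ := exists_data hN σ hσ
  rw [← hqdef] at hle hkt
  have hT := tgt_lt hq2 (show 1 ≤ N by omega)
  have hm : m = 1 := by
    by_contra hne
    have h2 : 2 * (q ^ N - 1) ≤ m * (q ^ N - 1) := Nat.mul_le_mul_right _ (by omega)
    omega
  subst hm
  rw [Nat.cast_one, one_mul] at hkt
  set i : Fin N := ⟨0, by omega⟩
  set j : Fin N := ⟨1, by omega⟩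
  have hij : i ≠ j := by simp [i, j]
  have hfix : ∀ w : Fin N → F, w ≠ 0 → w j = 0 →
      FixOK (MonoidHom.id (SpecialLinearGroup (Fin 1 ⊕ Fin N) F)) hij w := by
    intro w _ hw
    by_cases h2 : N = 2
    · subst h2
      exact fixOK_sl_two (fun e => hex (Or.inl ⟨rfl, Or.inl e⟩)) (fun e => hex (Or.inl ⟨rfl, Or.inr e⟩)) hij hw
    · refine fixOK_sl (by omega) ?_ hij hw
      by_contra hc
      push Not at hc
      exact hex (Or.inr ⟨by omega, by omega⟩)
  obtain ⟨c, hk, htc, hW, htr⟩ := reduce σ ht hij hfix hkt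
  rw [← hqdef] at hk htr
  set τ := tau σ ht
  have hqN : 0 < q ^ (N - 1) := Nat.pow_pos (by omega)
  have hτ : ∃ g, (τ.comp SpecialLinearGroup.toGL) g ≠ 1 := ⟨SpecialLinearGroup.transvection hij 1, fun e => by
    rw [MonoidHom.comp_apply] at e
    rw [e, LinearMap.trace_one, hW] at htr
    have h0 : ((q ^ (N - 1) : ℕ) : ℂ) = 0 := by linear_combination htr
    exact hqN.ne' (by exact_mod_cast h0)⟩
  have hc1 : 1 ≤ c := by
    by_contra hc
    obtain ⟨g, hg⟩ := hτ
    have : Subsingleton (LinearMap.range (P0 σ ht)) := Module.finrank_zero_iff (R := ℂ) |>.mp (by omega)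
    exact hg (LinearMap.ext fun x => Subsingleton.elim _ _)
  have hdvd : finrank ℂ V ∣ (tgt q N + 1) * (q ^ N - 1) * (c - 1) := by
    have hg := isTv_slLevi (F := F) hij one_ne_zero
    have hidx : (Subgroup.centralizer ({slLevi (SpecialLinearGroup.transvection hij (1 : F))} :
        Set (SpecialLinearGroup (Fin 1 ⊕ Fin N) F))).index = (tgt q N + 1) * (q ^ N - 1) := by
      refine Nat.eq_of_mul_eq_mul_right (show 0 < q - 1 by omega) ?_
      rw [card_class_mul hN hg, add_comm 1 N, ← tgt_geom]
      ring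
    have hint := Cfsg.Agent.Chars.rep_centralChar_isIntegral σ (slLevi (SpecialLinearGroup.transvection hij (1 : F)))
    rw [hidx, show σ.character _ = (((c - 1 : ℕ)) : ℂ) by
      rw [Nat.cast_sub hc1, Nat.cast_one]; exact (ht _ hg).trans htc] at hint
    refine Cfsg.Agent.Chars.dvd_of_isIntegral_div (Cfsg.Agent.Chars.finrank_pos_of_isIrreducible σ) ?_
    rwa [Nat.cast_mul]
  have hdc : finrank ℂ V ∣ Nat.card (GL (Fin (1 + N)) F) := by
    refine (Cfsg.Agent.Chars.rep_finrank_dvd_card σ).trans ?_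
    rw [Nat.card_congr (reix (F := F) (N := N)).toEquiv]
    exact Subgroup.card_dvd_of_injective (SpecialLinearGroup.toGL (n := Fin (1 + N)) (R := F))
      fun _ _ h => Subtype.ext (congrArg (fun x : GL (Fin (1 + N)) F => x.1) h)
  rw [Matrix.card_GL_field, ← hqdef] at hdc
  have hpos : 1 ≤ q ^ N := Nat.one_le_pow _ _ (by omega)
  obtain ⟨M, rfl⟩ : ∃ M, N = 1 + M := ⟨N - 1, by omega⟩
  rw [show 1 + M - 1 = M by omega] at hqN htr
  have hTM : tgt q (1 + M) = tgt q M + q ^ (1 + M) := by rw [add_comm 1 M, tgt_succ]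
  rcases (show M = 1 ∨ 2 ≤ M by omega) with rfl | hM2
  · -- dimension three
    have hq3 : 3 ≤ q := by
      by_contra hc'
      exact hex (Or.inl ⟨rfl, Or.inl (by omega)⟩)
    have h4 : q ≠ 4 := fun e => hex (Or.inl ⟨rfl, Or.inr e⟩)
    have havg := root_avg τ hij (q ^ 1) (by rw [hW]; exact htr)
    rw [hW, pow_one, ← hqdef, mul_comm (q - 1) q] at havg
    have hcq : q - 1 ≤ c := Nat.le_of_mul_le_mul_left havg (by omega)
    rcases (show c = q - 1 ∨ c = q by
      have h1 : tgt q 1 = q := by simp [tgt]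
      rw [hTM, h1] at hlt
      omega) with hc | hc
    · exact no_pred_three hq3 h4 card_ne_ten hc hk hdvd
    · exact no_pred hq2 le_rfl (by rw [hc]; simp [tgt]) hk hdvd
  · by_cases hexM : Exc q M
    · -- the exceptional cases
      rcases hexM with ⟨rfl, h | h⟩ | ⟨rfl, h | h⟩
      · exact hex (Or.inr ⟨rfl, Or.inl h⟩)
      · obtain ⟨c', hc', hav⟩ := inner le_rfl (by omega) τ hij (by rw [hW]; exact htr)
        rw [hW] at hc'
        rw [← hqdef] at hc' hav
        rw [h] at hc' hav hk hdvd hdc hlt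
        simp [tgt, Finset.sum_range_succ, Fin.prod_univ_succ] at hc' hav hk hdvd hdc hlt
        have : 18 ≤ c := by omega
        have : c ≤ 20 := by omega
        rw [hk] at hdvd hdc
        interval_cases c <;> first | rfl | norm_num at hdvd
      · -- five over two
        have hb := base_bound (M := 3) (by norm_num) ((τ.comp SpecialLinearGroup.toGL).comp (reix (F := F) (N := 3)).toMonoidHom)
          (by
            obtain ⟨g, hg⟩ := hτ
            exact ⟨reix.symm g, by simpa using hg⟩)
        rw [← hqdef, hW, h] at hb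
        have hk2 := hk
        rw [h] at hk hdvd hdc hlt
        simp [tgt, Finset.sum_range_succ, Fin.prod_univ_succ] at hk hdvd hdc hlt hb
        have hc9 : c = 9 := by
          have : c ≤ 14 := by omega
          rw [hk] at hdvd hdc
          interval_cases c <;> first | rfl | norm_num at hdvd
        let ρ : SpecialLinearGroup (Fin 1 ⊕ Fin 3) F →* End ℂ (LinearMap.range (P0 σ ht)) :=
          (τ.comp SpecialLinearGroup.toGL).comp (reix (F := F) (N := 3)).toMonoidHom
        have hab : (0 : Fin 3) ≠ 1 := by decide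
        obtain ⟨x, hx0, hx⟩ := exists_fixed_five_two (F := F) h ρ (hW.trans hc9) hab (by
          refine (trace_const_fin (by norm_num) (τ.comp SpecialLinearGroup.toGL) (isTv_reix (isTv_slLevi hab one_ne_zero))
            (isTv_transvection hij one_ne_zero)).trans ?_
          rw [MonoidHom.comp_apply, htr, hc9, h]
          norm_num)
        have hfixed : ∀ v : V, (∀ g, σ g v = v) → v = 0 := by
          intro v hv
          by_contra hv0
          let S : Subrepresentation σ :=
            { toSubmodule := ℂ ∙ v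
              apply_mem_toSubmodule := fun g y hy => by
                obtain ⟨a, rfl⟩ := Submodule.mem_span_singleton.mp hy
                rw [map_smul, hv]
                exact Submodule.smul_mem _ a (Submodule.mem_span_singleton_self v) }
          rcases IsSimpleOrder.eq_bot_or_eq_top S with hS | hS
          · have : v ∈ (⊥ : Subrepresentation σ).toSubmodule := hS ▸ Submodule.mem_span_singleton_self v
            exact hv0 ((Submodule.mem_bot ℂ).mp this)
          · have h1 : (ℂ ∙ v) = ⊤ := congrArg Subrepresentation.toSubmodule hS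
            have h2 := finrank_span_singleton (K := ℂ) hv0
            rw [h1, finrank_top, hk2, h] at h2
            omega
        have hp := perm_two h (N := 1 + 3) (by norm_num) σ hfixed (v := x.1) (fun e => hx0 (Subtype.ext e))
          (fun y => slUni_fix σ ht x.2 y) (fun B => by
            have e := congrArg Subtype.val (hx ((reix (F := F) (N := 3)).symm B))
            simp only [ρ, MonoidHom.comp_apply, MulEquiv.coe_toMonoidHom, MulEquiv.apply_symm_apply] at e
            rw [tau_apply, lev_toGL] at e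
            exact e)
        rw [hk2, h, hc9] at hp
        norm_num at hp
      · obtain ⟨c', hc', hav⟩ := inner (by norm_num) (by omega) τ hij (by rw [hW]; exact htr)
        rw [hW] at hc'
        rw [← hqdef] at hc' hav
        rw [h] at hc' hav hk hdvd hdc hlt
        simp [tgt, Finset.sum_range_succ, Fin.prod_univ_succ] at hc' hav hk hdvd hdc hlt
        have : 32 ≤ c := by omega
        have : c ≤ 39 := by omega
        rw [hk] at hdvd hdc
        interval_cases c <;> first | rfl | norm_num at hdvd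
    · have hb := ih M (by omega) hM2 hexM _ ((τ.comp SpecialLinearGroup.toGL).comp (reix (F := F) (N := M)).toMonoidHom)
        (by
          obtain ⟨g, hg⟩ := hτ
          exact ⟨reix.symm g, by simpa using hg⟩)
      rw [hW] at hb
      have hceq : c = tgt q M := by
        rw [hTM] at hlt
        omega
      refine no_pred hq2 (show 1 ≤ M by omega) hceq (k := finrank ℂ V) ?_ ?_
      · rw [add_comm M 1]; exact hk
      · rw [add_comm M 1]; exact hdvd

/-- The lower bound. -/
theorem min_degree : ∀ N : ℕ, 2 ≤ N → ¬ Exc (Fintype.card F) N → ∀ (V : Type v) [AddCommGroup V] [Module ℂ V]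
    [FiniteDimensional ℂ V] (σ : SpecialLinearGroup (Fin 1 ⊕ Fin N) F →* End ℂ V), (∃ g, σ g ≠ 1) →
      tgt (Fintype.card F) N ≤ finrank ℂ V := by
  intro N
  induction N using Nat.strong_induction_on with
  | _ N ih =>
    intro hN hex V _ _ _ σ hσ
    obtain ⟨S, hS, hnt, hle⟩ := exists_irreducible_nontrivial σ hσ
    have := hS
    exact le_trans (irr_bound hN hex ih S.toRepresentation hnt) hle

end Cfsg.Agent.KnownA.SLMin
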