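import Mathlib

/-! The representation on the range of a commuting idempotent. -/

set_option autoImplicit false

namespace Cfsg.Agent.KnownA.SLMin

open Module

variable {H V : Type*} [Group H] [AddCommGroup V] [Module ℂ V] (ρ : H →* End ℂ V) {P : End ℂ V}
  (hc : ∀ g, ρ g * P = P * ρ g)

/-- The representation on the range of a commuting idempotent. -/
def rangeRep : H →* End ℂ (LinearMap.range P) where
  toFun g := (ρ g).restrict (p := LinearMap.range P) (q := LinearMap.range P) fun x hx => by
    obtain ⟨y, rfl⟩ := hx
    exact ⟨ρ g y, (LinearMap.congr_fun (hc g) y).symm⟩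
  map_one' := LinearMap.ext fun x => Subtype.ext (by simp)
  map_mul' g h := LinearMap.ext fun x => Subtype.ext (by simp)

variable [FiniteDimensional ℂ V]

theorem trace_rangeRep (hP : IsIdempotentElem P) (g : H) :
    LinearMap.trace ℂ (LinearMap.range P) (rangeRep ρ hc g) = LinearMap.trace ℂ V (ρ g * P) := by
  have hproj := LinearMap.IsIdempotentElem.isProj_range P hP
  have e : ρ g * P = ((LinearMap.range P).subtype ∘ₗ rangeRep ρ hc g) ∘ₗ P.rangeRestrict :=
    LinearMap.ext fun x => rfl
  rw [e, LinearMap.trace_comp_comm', ← LinearMap.comp_assoc]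
  have e2 : P.rangeRestrict ∘ₗ (LinearMap.range P).subtype = LinearMap.id :=
    LinearMap.ext fun x => Subtype.ext (hproj.map_id x.1 x.2)
  rw [e2, LinearMap.id_comp]

theorem finrank_range (hP : IsIdempotentElem P) {r : ℕ} (h : LinearMap.trace ℂ V P = r) :
    finrank ℂ (LinearMap.range P) = r := by
  have := (LinearMap.IsIdempotentElem.isProj_range P hP).trace
  rw [h] at this
  exact_mod_cast this.symm

end Cfsg.Agent.KnownA.SLMin
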