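import Cfsg.Agent.KnownA.SLMin.Frame
import Cfsg.Agent.KnownA.SLMin.Range
import Cfsg.Agent.KnownA.SLCrossChar

/-!
One step of the reduction: the fixed space of the abelian radical of the point stabiliser and the trace of a
transvection of the complement on it.
-/

set_option autoImplicit false
set_option linter.unusedSectionVars false

namespace Cfsg.Agent.KnownA.SLMin

open Matrix Module

variable {F : Type*} [Field F] [Fintype F] [DecidableEq F] {N : ℕ} {G : Type*} [Group G]
  {V : Type*} [AddCommGroup V] [Module ℂ V] [FiniteDimensional ℂ V]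

/-- The additive automorphism given by an invertible matrix. -/
noncomputable def act (M : GL (Fin N) F) : (Fin N → F) ≃+ (Fin N → F) where
  toFun v := v ᵥ* M.1
  invFun v := v ᵥ* (M⁻¹).1
  left_inv v := by simp only [vecMul_vecMul, Units.mul_inv, vecMul_one]
  right_inv v := by simp only [vecMul_vecMul, Units.inv_mul, vecMul_one]
  map_add' a b := add_vecMul _ a b

@[simp] theorem act_apply (M : GL (Fin N) F) (v : Fin N → F) : act M v = v ᵥ* M.1 := rfl

/-- The character attached to a vector. -/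
noncomputable def psi (θ : AddChar F ℂ) (w : Fin N → F) : AddChar (Fin N → F) ℂ where
  toFun v := θ (w ⬝ᵥ v)
  map_zero_eq_one' := by simp
  map_add_eq_mul' a b := by rw [dotProduct_add, AddChar.map_add_eq_mul]

theorem psi_injective {θ : AddChar F ℂ} (hθ : θ.IsPrimitive) :
    Function.Injective (psi (N := N) θ) := by
  intro a b hab
  by_contra hne
  obtain ⟨j, hj⟩ := Function.ne_iff.mp (sub_ne_zero.mpr hne)
  rw [Pi.zero_apply] at hj
  refine hθ hj (AddChar.ext _ _ fun c => ?_)
  have h1 : θ (a ⬝ᵥ Pi.single j c) = θ (b ⬝ᵥ Pi.single j c) :=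
    congrArg (fun τ : AddChar (Fin N → F) ℂ => τ (Pi.single j c)) hab
  rw [AddChar.mulShift_apply, AddChar.one_apply, Pi.sub_apply, sub_mul, AddChar.map_sub_eq_div,
    ← dotProduct_single, ← dotProduct_single, h1, div_self (AddChar.val_isUnit θ _).ne_zero]

theorem psi_surjective {θ : AddChar F ℂ} (hθ : θ.IsPrimitive) :
    Function.Surjective (psi (N := N) θ) :=
  ((Fintype.bijective_iff_injective_and_card _).mpr ⟨psi_injective hθ, by rw [AddChar.card_eq]⟩).2

theorem psi_zero (θ : AddChar F ℂ) : psi (N := N) θ 0 = 0 :=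
  AddChar.ext _ _ fun v => by simp [psi, AddChar.zero_apply]

variable (σ : G →* End ℂ V) (f : SpecialLinearGroup (Fin 1 ⊕ Fin N) F →* G)

/-- The element `g` normalises the radical through `M`. -/
def Norms (g : G) (M : GL (Fin N) F) : Prop := ∀ v, g * f (slUni v) = f (slUni (v ᵥ* M.1)) * g

/-- `g` fixes the character attached to `w`. -/
def Stab (g : G) (w : Fin N → F) : Prop := ∃ M : GL (Fin N) F, Norms f g M ∧ M.1 *ᵥ w = w

theorem norms_levi (B : SpecialLinearGroup (Fin N) F) :
    Norms f (f (slLevi B)) (SpecialLinearGroup.toGL B⁻¹) := by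
  intro v
  rw [← map_mul, ← map_mul]
  congr 1
  rw [slUni_conj, vecMul_vecMul]
  congr
  show v = v ᵥ* ((B⁻¹ * B : SpecialLinearGroup (Fin N) F)).1
  rw [inv_mul_cancel]
  exact (vecMul_one v).symm

theorem stab_levi {B : SpecialLinearGroup (Fin N) F} {w : Fin N → F} (h : B.1 *ᵥ w = w) :
    Stab f (f (slLevi B)) w := by
  refine ⟨_, norms_levi f B, ?_⟩
  show (B⁻¹).1 *ᵥ w = w
  conv_lhs => rw [← h]
  rw [mulVec_mulVec]
  show (B⁻¹ * B : SpecialLinearGroup (Fin N) F).1 *ᵥ w = w
  rw [inv_mul_cancel]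
  exact one_mulVec w

/-- The family of operators of the radical. -/
def radFrame {t : ℂ} (ht : ∀ v, v ≠ 0 → LinearMap.trace ℂ V (σ (f (slUni v))) = t) :
    Frame (Fin N → F) V where
  op v := σ (f (slUni v))
  op_add x y := by rw [← map_mul, ← map_mul, slUni_mul]
  op_zero := by rw [slUni_zero, map_one, map_one]
  t := t
  trace_op := ht

variable {t : ℂ} (ht : ∀ v, v ≠ 0 → LinearMap.trace ℂ V (σ (f (slUni v))) = t)

theorem norms_mul {g : G} {M : GL (Fin N) F} (hg : Norms f g M) (v : Fin N → F) :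
    σ g * (radFrame σ f ht).op v = (radFrame σ f ht).op (act M v) * σ g := by
  show σ g * σ (f (slUni v)) = σ (f (slUni (v ᵥ* M.1))) * σ g
  rw [← map_mul, ← map_mul, hg]

theorem proj_zero_comm {g : G} {M : GL (Fin N) F} (hg : Norms f g M) :
    σ g * (radFrame σ f ht).proj 0 = (radFrame σ f ht).proj 0 * σ g := by
  rw [(radFrame σ f ht).mul_proj (act M) (norms_mul σ f ht hg)]
  congr 2

theorem proj_comm {θ : AddChar F ℂ} {g : G} {w : Fin N → F} (hg : Stab f g w) :
    σ g * (radFrame σ f ht).proj (psi θ w) = (radFrame σ f ht).proj (psi θ w) * σ g := by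
  obtain ⟨M, hM, hw⟩ := hg
  rw [(radFrame σ f ht).mul_proj (act M) (norms_mul σ f ht hM)]
  congr 2
  refine AddChar.ext _ _ fun v => ?_
  show θ (w ⬝ᵥ (act M).symm v) = θ (w ⬝ᵥ v)
  obtain ⟨x, rfl⟩ := (act M).surjective v
  rw [AddEquiv.symm_apply_apply, act_apply]
  conv_lhs => rw [← hw]
  rw [dotProduct_comm, dotProduct_mulVec, dotProduct_comm]

theorem card_fix {i j : Fin N} (hij : i ≠ j) :
    Fintype.card {v : Fin N → F // v ᵥ* Matrix.transvection i j (-1 : F) = v} = Fintype.card F ^ (N - 1) := by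
  classical
  have h : ∀ v : Fin N → F, v ᵥ* Matrix.transvection i j (-1 : F) = v ↔ v i = 0 := by
    intro v
    have e1 : v ᵥ* Matrix.transvection i j (-1 : F) = v + Pi.single j (-v i) := by
      rw [Matrix.transvection, vecMul_add, vecMul_one]
      congr 1
      ext k
      by_cases hk : k = j
      · subst hk; simp [vecMul, dotProduct, Matrix.single_apply]
      · simp [vecMul, dotProduct, Matrix.single_apply, hk, Ne.symm hk]
    rw [e1, add_eq_left, Pi.single_eq_zero_iff, neg_eq_zero]
  let e : {v : Fin N → F // v i = 0} ≃ ({k : Fin N // k ≠ i} → F) :=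
    { toFun := fun v k => v.1 k.1
      invFun := fun x => ⟨fun k => if hk : k = i then 0 else x ⟨k, hk⟩, by simp⟩
      left_inv := fun v => Subtype.ext (funext fun k => by
        by_cases hk : k = i
        · subst hk; simp [v.2]
        · simp [hk])
      right_inv := fun x => funext fun k => by simp [k.2] }
  rw [Fintype.card_congr (Equiv.subtypeEquivRight h), Fintype.card_congr e, Fintype.card_fun,
    Fintype.card_subtype_compl, Fintype.card_subtype_eq, Fintype.card_fin]

/-- The trace of a transvection of the complement on the fixed space of the radical. -/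
theorem step {i j : Fin N} (hij : i ≠ j) (hN : 0 < N)
    (hu : LinearMap.trace ℂ V (σ (f (slLevi (SpecialLinearGroup.transvection hij (1 : F))))) = t)
    (hfix : ∀ w : Fin N → F, w ≠ 0 → w j = 0 → ∃ g h : G, Stab f g w ∧ Stab f h w ∧
      f (slLevi (SpecialLinearGroup.transvection hij (1 : F))) = g * h * g⁻¹ * h⁻¹)
    (hm : (finrank ℂ V : ℂ) - t = (Fintype.card F : ℂ) ^ N) :
    ∃ c : ℕ, (finrank ℂ V : ℂ) = (c : ℂ) + (Fintype.card F : ℂ) ^ N - 1 ∧ t = (c : ℂ) - 1 ∧
      LinearMap.trace ℂ V ((radFrame σ f ht).proj 0) = c ∧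
      LinearMap.trace ℂ V (σ (f (slLevi (SpecialLinearGroup.transvection hij (1 : F)))) * (radFrame σ f ht).proj 0)
        = (c : ℂ) - (Fintype.card F : ℂ) ^ (N - 1) := by
  classical
  have : NeZero N := ⟨hN.ne'⟩
  set S := radFrame σ f ht
  obtain ⟨c, m, hc, hψ, hdim, htm⟩ := S.exists_cm
  replace htm : t = (c : ℂ) - m := htm
  have hcard : (Fintype.card (Fin N → F) : ℂ) = (Fintype.card F : ℂ) ^ N := by
    rw [Fintype.card_fun, Fintype.card_fin, Nat.cast_pow]
  rw [hcard] at hdim
  have hm1 : (m : ℂ) = 1 := by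
    refine mul_left_cancel₀ (pow_ne_zero N (Nat.cast_ne_zero.mpr (Fintype.card_ne_zero (α := F)))) ?_
    linear_combination hm - hdim + htm
  rw [hm1] at hdim htm
  refine ⟨c, by linear_combination hdim, htm, hc, ?_⟩
  set u := SpecialLinearGroup.transvection hij (1 : F)
  set T := σ (f (slLevi u))
  have hB : ∀ v, v ᵥ* (SpecialLinearGroup.toGL u⁻¹ : GL (Fin N) F).1 = v ᵥ* Matrix.transvection i j (-1 : F) := by
    intro v
    congr 1
    show (u⁻¹).1 = _
    rw [SpecialLinearGroup.transvection_inv]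
    rfl
  obtain ⟨θ, hθ⟩ : ∃ θ : AddChar F ℂ, θ.IsPrimitive :=
    ⟨AddChar.FiniteField.primitiveChar_to_Complex F, AddChar.FiniteField.primitiveChar_to_Complex_isPrimitive F⟩
  have key := S.trace_eq (T := T) (act (SpecialLinearGroup.toGL u⁻¹))
    (norms_mul σ f ht (norms_levi f u)) (m := (1 : ℂ)) (fun ψ hψ0 => by rw [hψ ψ hψ0, hm1]) ?_
  · have hfx : Fintype.card {v : Fin N → F // act (SpecialLinearGroup.toGL u⁻¹) v = v} =
        Fintype.card F ^ (N - 1) := by
      rw [← card_fix (F := F) hij]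
      exact Fintype.card_congr ((Equiv.refl _).subtypeEquiv fun v => by rw [act_apply, hB]; rfl)
    rw [hfx, hu, one_mul, Nat.cast_pow] at key
    linear_combination htm - key
  · intro ψ hψ0 hst
    obtain ⟨w, rfl⟩ := psi_surjective hθ ψ
    have hw0 : w ≠ 0 := fun e => hψ0 (by rw [e, psi_zero])
    have hMw : (SpecialLinearGroup.toGL u⁻¹ : GL (Fin N) F).1 *ᵥ w = w := by
      refine psi_injective hθ (AddChar.ext _ _ fun v => ?_)
      have := hst v
      rw [act_apply] at this
      show θ (_ ⬝ᵥ v) = θ (w ⬝ᵥ v)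
      change θ (w ⬝ᵥ v ᵥ* _) = θ (w ⬝ᵥ v) at this
      rw [← this, dotProduct_comm, dotProduct_mulVec, dotProduct_comm]
    have hwj : w j = 0 := by
      have h2 := congrFun hMw i
      rw [show (SpecialLinearGroup.toGL u⁻¹ : GL (Fin N) F).1 = Matrix.transvection i j (-1 : F) by
        show (u⁻¹).1 = _
        rw [SpecialLinearGroup.transvection_inv]; rfl] at h2
      simp [Matrix.transvection, mulVec, dotProduct, Matrix.add_apply, Matrix.one_apply, Matrix.single_apply,
        add_mul, Finset.sum_add_distrib] at h2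
      exact h2
    obtain ⟨g, h, hg, hh, e⟩ := hfix w hw0 hwj
    show σ (f (slLevi u)) * _ = _
    rw [e]
    exact Frame.commutator_mul_proj σ (S.isIdempotent_proj _) (by rw [hψ _ hψ0, hm1])
      (proj_comm σ f ht hg) (proj_comm σ f ht hh)

end Cfsg.Agent.KnownA.SLMin
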